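import Mathlib

/-!
# Permutations of large prime order of a small rank root system (helper712)
-/

set_option autoImplicit false

namespace Cfsg.Agent.H712.OT

open Polynomial

theorem perm_eq_one_aux {ι : Type*} [Finite ι] (P : ι → ι → ℤ) (hP : ∀ a b, (∀ x, P a x = P b x) → a = b)
    (s : Fin 8 → ι → ℚ) (hs : ∀ a, ∃ c : Fin 8 → ℚ, ∀ x, (P a x : ℚ) = ∑ i, c i * s i x)
    (σ : Equiv.Perm ι) (hσ : ∀ x y, P (σ x) (σ y) = P x y) {l : ℕ} (hl : l.Prime) (h11 : 11 ≤ l)
    (h : σ ^ l = 1) : σ = 1 := by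
  classical
  have := Fintype.ofFinite ι
  let v : ι → (ι → ℚ) := fun a x => (P a x : ℚ)
  let E : Submodule ℚ (ι → ℚ) := Submodule.span ℚ (Set.range v)
  have hEs : E ≤ Submodule.span ℚ (Set.range s) := by
    refine Submodule.span_le.2 ?_
    rintro _ ⟨a, rfl⟩
    obtain ⟨c, hc⟩ := hs a
    have h1 : v a = ∑ i, c i • s i := by
      ext x
      simp only [v, Finset.sum_apply, Pi.smul_apply, smul_eq_mul]
      exact hc x
    rw [h1]
    exact Submodule.sum_mem _ fun i _ => Submodule.smul_mem _ _ (Submodule.subset_span ⟨i, rfl⟩)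
  have hE8 : Module.finrank ℚ E ≤ 8 := by
    refine (Submodule.finrank_mono hEs).trans ?_
    have := finrank_range_le_card (R := ℚ) (b := s)
    simpa [Set.finrank] using this
  let L : (ι → ℚ) →ₗ[ℚ] (ι → ℚ) := LinearMap.funLeft ℚ ℚ (σ⁻¹ : Equiv.Perm ι)
  have hLv : ∀ a, L (v a) = v (σ a) := by
    intro a
    ext x
    change ((P a ((σ⁻¹ : Equiv.Perm ι) x) : ℤ) : ℚ) = (P (σ a) x : ℚ)
    rw [← hσ a]
    simp
  have hLE : ∀ y ∈ E, L y ∈ E := by
    intro y hy
    have h2 : E ≤ E.comap L := by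
      refine Submodule.span_le.2 ?_
      rintro _ ⟨a, rfl⟩
      change L (v a) ∈ E
      rw [hLv]
      exact Submodule.subset_span ⟨σ a, rfl⟩
    exact h2 hy
  let u : Module.End ℚ E := L.restrict hLE
  have hpow : ∀ (n : ℕ) (a : ι), (L ^ n) (v a) = v ((σ ^ n) a) := by
    intro n
    induction n with
    | zero => intro a; simp
    | succ n ih =>
        intro a
        rw [pow_succ', Module.End.mul_apply, ih, hLv, pow_succ', Equiv.Perm.mul_apply]
  have hu : u ^ l = 1 := by
    apply LinearMap.ext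
    rintro ⟨y, hy⟩
    apply Subtype.ext
    have h3 : ((u ^ l) ⟨y, hy⟩ : ι → ℚ) = (L ^ l) y := by
      have := Module.End.pow_restrict (f' := L) l hLE
      have h4 := congrArg (fun g => ((g ⟨y, hy⟩ : E) : ι → ℚ)) this
      simpa [u] using h4
    rw [h3]
    change (L ^ l) y = y
    have h5 : E ≤ LinearMap.eqLocus (L ^ l) LinearMap.id := by
      refine Submodule.span_le.2 ?_
      rintro _ ⟨a, rfl⟩
      change (L ^ l) (v a) = v a
      rw [hpow, h]
      rfl
    exact h5 hy
  have hmin : minpoly ℚ u ∣ X ^ l - 1 := by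
    refine minpoly.dvd ℚ u ?_
    simp [hu]
  have hdeg : (minpoly ℚ u).natDegree ≤ 8 := by
    have h6 : minpoly ℚ u ∣ u.charpoly := LinearMap.minpoly_dvd_charpoly u
    have h7 := natDegree_le_of_dvd h6 (LinearMap.charpoly_monic u).ne_zero
    rw [LinearMap.charpoly_natDegree] at h7
    exact h7.trans hE8
  have hint : IsIntegral ℚ u := Algebra.IsIntegral.isIntegral u
  have hcop : IsCoprime (minpoly ℚ u) (cyclotomic l ℚ) := by
    refine IsCoprime.symm (((cyclotomic.irreducible_rat hl.pos).coprime_iff_not_dvd).2 fun hd => ?_)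
    have h8 := natDegree_le_of_dvd hd (minpoly.ne_zero hint)
    rw [natDegree_cyclotomic, Nat.totient_prime hl] at h8
    omega
  have hX : minpoly ℚ u ∣ X - 1 := by
    have hf : Fact l.Prime := ⟨hl⟩
    rw [← cyclotomic_prime_mul_X_sub_one ℚ l] at hmin
    exact hcop.dvd_of_dvd_mul_left hmin
  have hu1 : u = 1 := by
    obtain ⟨r, hr⟩ := hX
    have h9 : aeval u (X - 1 : ℚ[X]) = 0 := by
      have h91 : aeval u (minpoly ℚ u) = 0 := minpoly.aeval ℚ u
      rw [hr, map_mul, h91, zero_mul]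
    simpa [sub_eq_zero] using h9
  apply Equiv.ext
  intro a
  refine hP _ _ fun x => ?_
  have h10 : L (v a) = v a := by
    have h11 : ((u ⟨v a, Submodule.subset_span ⟨a, rfl⟩⟩ : E) : ι → ℚ) = v a := by rw [hu1]; rfl
    exact h11
  rw [hLv] at h10
  have h12 : ((P (σ a) x : ℤ) : ℚ) = ((P a x : ℤ) : ℚ) := congrFun h10 x
  change P (σ a) x = P a x
  exact_mod_cast h12

/-- a permutation of `ℓ`-power order, `ℓ ≥ 11`, preserving a nondegenerate form of rank at most 8, is trivial -/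
theorem perm_eq_one {ι : Type*} [Finite ι] (P : ι → ι → ℤ) (hP : ∀ a b, (∀ x, P a x = P b x) → a = b)
    (s : Fin 8 → ι → ℚ) (hs : ∀ a, ∃ c : Fin 8 → ℚ, ∀ x, (P a x : ℚ) = ∑ i, c i * s i x)
    (σ : Equiv.Perm ι) (hσ : ∀ x y, P (σ x) (σ y) = P x y) {l : ℕ} (hl : l.Prime) (h11 : 11 ≤ l) {k : ℕ}
    (h : σ ^ l ^ k = 1) : σ = 1 := by
  induction k with
  | zero => simpa using h
  | succ k ih =>
      refine ih (perm_eq_one_aux P hP s hs _ ?_ hl h11 (by rw [← pow_mul, ← pow_succ]; exact h))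
      intro x y
      have h1 : ∀ (n : ℕ) (x y : ι), P ((σ ^ n) x) ((σ ^ n) y) = P x y := by
        intro n
        induction n with
        | zero => intro x y; rfl
        | succ n ih => intro x y; rw [pow_succ', Equiv.Perm.mul_apply, Equiv.Perm.mul_apply, hσ, ih]
      exact h1 _ x y

end Cfsg.Agent.H712.OT
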