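import Cfsg.Agent.H712.OT.EvenThree
import Cfsg.Agent.H712.OT.BigOrder
import Cfsg.Agent.Lib.Zsigmondy

/-!
# S2539, part 4 (q even): a prime `ℓ` for which the torus is strongly closed (helper712)

`Ctx.even_main` : for `|K| = 2^k ≥ 13` there is an odd prime `ℓ ∣ |K| - 1` such that `T ∩ M^f` has no element of order `ℓ`
for `f ∉ M`; either `ℓ = 3` and `T` has 3-rank at least 3, or `ℓ ≥ 5`, `M/T` is an `ℓ'`-group and `T` has `ℓ`-rank at least 2.
-/

set_option autoImplicit false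

namespace Cfsg.Agent.H712.OT

universe u v w

theorem exists_big {k : ℕ} (hk : 4 ≤ k) (h4 : k ≠ 4) (h6 : k ≠ 6) : ∃ l : ℕ, l.Prime ∧ 11 ≤ l ∧ l ∣ 2 ^ k - 1 := by
  by_cases h10 : 10 ≤ k
  · obtain ⟨r, hr, h1, h2, -⟩ := Cfsg.Agent.Lib.Zsigmondy.exists_primitive (a := 2) (n := k) le_rfl (by omega)
      (by omega) (by omega)
    refine ⟨r, hr, ?_, (h1 k).2 dvd_rfl⟩
    have h3 := Nat.le_of_dvd (by have := hr.two_le; omega) h2
    omega
  · have hcases : k = 5 ∨ k = 7 ∨ k = 8 ∨ k = 9 := by omega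
    rcases hcases with rfl | rfl | rfl | rfl
    · exact ⟨31, by norm_num, by norm_num, by norm_num⟩
    · exact ⟨127, by norm_num, by norm_num, by norm_num⟩
    · exact ⟨17, by norm_num, by norm_num, by norm_num⟩
    · exact ⟨73, by norm_num, by norm_num, by norm_num⟩

namespace Ctx

variable {K : Type u} [Field K] [Fintype K] {Y : Type v} [Group Y] {T M : Subgroup Y}
  {Φ : Type w} {Ψ : Set Φ} {P : Φ → Φ → ℤ}

/-- six roots of an `A₂` -/
def six (X : Ctx K Y T M Φ Ψ P) (a b c : Φ) : Fin 6 → Φ := ![a, b, c, X.neg a, X.neg b, X.neg c]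

theorem six_injective (X : Ctx K Y T M Φ Ψ P) {a b c : Φ} (hab : P a b = -1) (hc : ∀ x, P c x = P a x + P b x) :
    Function.Injective (X.six a b c) := by
  have hca : P c a = 1 := by rw [hc, X.self, X.symm b a, hab]; norm_num
  have hcb : P c b = 1 := by rw [hc, X.self, hab]; norm_num
  have hba : P b a = -1 := by rw [X.symm, hab]
  have key : ∀ i, (P (X.six a b c i) a, P (X.six a b c i) b) =
      (![((2 : ℤ), (-1 : ℤ)), (-1, 2), (1, 1), (-2, 1), (1, -2), (-1, -1)] : Fin 6 → ℤ × ℤ) i := by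
    intro i
    fin_cases i <;> simp [six, X.P_neg, X.self, hab, hba, hca, hcb]
  intro i j hij
  have h1 := key i
  rw [hij, key j] at h1
  clear hij key
  revert i j
  decide

/-- irreducible: `A₂` or an `A₃` inside -/
theorem a2_or_a3 (X : Ctx K Y T M Φ Ψ P) {a b c : Φ} (ha : a ∈ Ψ) (hb : b ∈ Ψ) (hcm : c ∈ Ψ) (hab : P a b = -1)
    (hc : ∀ x, P c x = P a x + P b x) :
    Ψ = Set.range (X.six a b c) ∨
      ∃ a1 ∈ Ψ, ∃ a2 ∈ Ψ, ∃ a3 ∈ Ψ, P a1 a2 = -1 ∧ P a2 a3 = -1 ∧ P a1 a3 = 0 := by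
  classical
  have hna := X.neg_mem a ha
  have hnb := X.neg_mem b hb
  have hnc := X.neg_mem c hcm
  have hba : P b a = -1 := by rw [X.symm, hab]
  have hca : P c a = 1 := by rw [hc, X.self, hba]; norm_num
  have hcb : P c b = 1 := by rw [hc, X.self, hab]; norm_num
  have hsub : Set.range (X.six a b c) ⊆ Ψ := by
    rintro _ ⟨i, rfl⟩
    fin_cases i <;> simp [six, ha, hb, hcm, hna, hnb, hnc]
  by_cases hS : Set.range (X.six a b c) = Ψ
  · exact Or.inl hS.symm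
  right
  obtain ⟨s, hs, x, hx, hxS, hsx⟩ := X.irred _ hsub ⟨_, ⟨0, rfl⟩⟩ hS
  have hne : ∀ i, X.six a b c i ≠ x := fun i h => hxS ⟨i, h⟩
  have hxa : a ≠ x := hne 0
  have hxb : b ≠ x := hne 1
  have hxc : c ≠ x := hne 2
  have hxna : X.neg a ≠ x := hne 3
  have hxnb : X.neg b ≠ x := hne 4
  have hxnc : X.neg c ≠ x := hne 5
  have bd : ∀ y, y ≠ x → X.neg y ≠ x → -1 ≤ P y x ∧ P y x ≤ 1 := by
    intro y h1 h2
    have h3 := abs_le.1 (X.P_abs y x)
    have h4 : P y x ≠ 2 := fun h => h1 (X.two _ _ h)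
    have h5 : P y x ≠ -2 := fun h => h2 (by
      have h6 : P (X.neg y) x = 2 := by rw [X.P_neg, h]; norm_num
      exact X.two _ _ h6)
    omega
  have ba := bd a hxa hxna
  have bb := bd b hxb hxnb
  have bc := bd c hxc hxnc
  rw [hc x] at bc
  have hnz : P a x ≠ 0 ∨ P b x ≠ 0 := by
    by_contra hcon
    push Not at hcon
    apply hsx
    obtain ⟨i, rfl⟩ := hs
    fin_cases i <;> simp [six, X.P_neg, hc, hcon.1, hcon.2]
  have hnn : P (X.neg b) (X.neg a) = -1 := by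
    rw [X.P_neg, X.symm, X.P_neg, hab]
    norm_num
  have hnn' : P (X.neg a) (X.neg b) = -1 := by
    rw [X.P_neg, X.symm, X.P_neg, hba]
    norm_num
  have hcases : (P a x = -1 ∧ P b x = 0) ∨ (P a x = 1 ∧ P b x = 0) ∨ (P a x = 0 ∧ P b x = -1) ∨
      (P a x = 0 ∧ P b x = 1) ∨ (P a x = 1 ∧ P b x = -1) ∨ (P a x = -1 ∧ P b x = 1) := by
    have := ba.1; have := ba.2; have := bb.1; have := bb.2; have := bc.1; have := bc.2
    omega
  rcases hcases with ⟨h1, h2⟩ | ⟨h1, h2⟩ | ⟨h1, h2⟩ | ⟨h1, h2⟩ | ⟨h1, h2⟩ | ⟨h1, h2⟩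
  · exact ⟨b, hb, a, ha, x, hx, hba, h1, h2⟩
  · exact ⟨_, hnb, _, hna, x, hx, hnn, by rw [X.P_neg, h1], by rw [X.P_neg, h2]; norm_num⟩
  · exact ⟨a, ha, b, hb, x, hx, hab, h2, h1⟩
  · exact ⟨_, hna, _, hnb, x, hx, hnn', by rw [X.P_neg, h2], by rw [X.P_neg, h1]; norm_num⟩
  · exact ⟨_, hnc, b, hb, x, hx, by rw [X.P_neg, hcb], h2, by rw [X.P_neg, hc, h1, h2]; norm_num⟩
  · exact ⟨_, hnc, a, ha, x, hx, by rw [X.P_neg, hca], h1, by rw [X.P_neg, hc, h1, h2]; norm_num⟩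

theorem act_neg (X : Ctx K Y T M Φ Ψ P) (m : M) (x : Φ) : X.act m (X.neg x) = X.neg (X.act m x) := by
  apply X.eq_neg
  rw [X.act_P, X.P_neg, X.self]

theorem neg_ne (X : Ctx K Y T M Φ Ψ P) (x : Φ) : X.neg x ≠ x := by
  intro h
  have h1 := X.P_neg x x
  rw [h, X.self] at h1
  omega

/-- the restriction of the action to `Ψ` -/
def actΨ (X : Ctx K Y T M Φ Ψ P) (m : M) : Equiv.Perm Ψ where
  toFun x := ⟨X.act m x, X.act_mem m x x.2⟩
  invFun x := ⟨X.act m⁻¹ x, X.act_mem m⁻¹ x x.2⟩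
  left_inv x := by
    apply Subtype.ext
    simp
  right_inv x := by
    apply Subtype.ext
    simp

theorem actΨ_coe (X : Ctx K Y T M Φ Ψ P) (m : M) (x : Ψ) : (X.actΨ m x : Φ) = X.act m x := rfl

theorem actΨ_pow (X : Ctx K Y T M Φ Ψ P) (m : M) (n : ℕ) : X.actΨ m ^ n = X.actΨ (m ^ n) := by
  induction n with
  | zero =>
      apply Equiv.ext
      intro x
      apply Subtype.ext
      change (x : Φ) = X.act (m ^ 0) x
      simp
  | succ n ih =>
      apply Equiv.ext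
      intro x
      rw [pow_succ, Equiv.Perm.mul_apply, ih]
      apply Subtype.ext
      change X.act (m ^ n) (X.act m x) = X.act (m ^ (n + 1)) x
      rw [pow_succ, map_mul, Equiv.Perm.mul_apply]

theorem actΨ_eq_one (X : Ctx K Y T M Φ Ψ P) {m : M} (h : X.actΨ m = 1) : (m : Y) ∈ T := by
  refine (X.act_T m).2 fun x hx => ?_
  have h1 := congrArg (fun g : Equiv.Perm Ψ => ((g ⟨x, hx⟩ : Ψ) : Φ)) h
  exact h1

theorem actΨ_of_mem (X : Ctx K Y T M Φ Ψ P) {m : M} (h : (m : Y) ∈ T) : X.actΨ m = 1 := by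
  apply Equiv.ext
  intro x
  apply Subtype.ext
  exact (X.act_T m).1 h x x.2

/-- `Ψ = A₂`, `ℓ = 5, 7` -/
theorem quot_six (X : Ctx K Y T M Φ Ψ P) (h6 : Nat.card Ψ = 6) {l : ℕ} (hl : l.Prime) (h5 : l = 5 ∨ l = 7)
    {m : M} {k : ℕ} (hm : ((m ^ l ^ k : M) : Y) ∈ T) : (m : Y) ∈ T := by
  classical
  have hfin : Finite Ψ := Nat.finite_of_card_ne_zero (by omega)
  have := Fintype.ofFinite Ψ
  have hlf : Fact l.Prime := ⟨hl⟩
  have h1 : X.actΨ m ^ l ^ k = 1 := by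
    rw [X.actΨ_pow]
    exact X.actΨ_of_mem hm
  have h2 : Fintype.card Ψ ≡ Fintype.card (Function.fixedPoints (X.actΨ m)) [MOD l] := by
    let f : Function.End Ψ := (X.actΨ m : Ψ → Ψ)
    have h30 : ∀ n : ℕ, ∀ x : Ψ, (f ^ n) x = (X.actΨ m ^ n) x := by
      intro n
      induction n with
      | zero => intro x; rfl
      | succ n ih =>
          intro x
          rw [pow_succ', pow_succ', Equiv.Perm.mul_apply, ← ih]
          rfl
    have h3 : f ^ l ^ k = 1 := by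
      funext x
      rw [h30, h1]
      rfl
    exact Equiv.Perm.card_fixedPoints_modEq h3
  rw [← Nat.card_eq_fintype_card, h6] at h2
  have h4 : Fintype.card (Function.fixedPoints (X.actΨ m)) = 6 := by
    have hle : Fintype.card (Function.fixedPoints (X.actΨ m)) ≤ 6 := by
      rw [← h6, Nat.card_eq_fintype_card]
      exact Fintype.card_le_of_injective (fun x => x.1) Subtype.val_injective
    set n := Fintype.card (Function.fixedPoints (X.actΨ m)) with hn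
    have h7 : n ≠ 1 := by
      intro h7
      obtain ⟨⟨x, hx⟩, hxu⟩ := Fintype.card_eq_one_iff.1 (hn.symm.trans h7)
      have hx1 : X.act m x = x := congrArg (fun z : Ψ => (z : Φ)) hx
      have hx2 : X.act m (X.neg x) = X.neg x := by rw [X.act_neg, hx1]
      have hx3 : (⟨X.neg x, X.neg_mem x x.2⟩ : Ψ) ∈ Function.fixedPoints (X.actΨ m) := by
        apply Subtype.ext
        exact hx2
      have hx4 := hxu ⟨_, hx3⟩
      exact X.neg_ne x (congrArg (fun z : Function.fixedPoints (X.actΨ m) => ((z : Ψ) : Φ)) hx4)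
    rcases h5 with rfl | rfl
    · have h8 : 6 % 5 = n % 5 := h2
      omega
    · have h8 : 6 % 7 = n % 7 := h2
      omega
  have h9 : X.actΨ m = 1 := by
    have h10 : Function.fixedPoints (X.actΨ m) = Set.univ := by
      have h11 : Fintype.card (Function.fixedPoints (X.actΨ m)) = Fintype.card Ψ := by
        rw [h4, ← Nat.card_eq_fintype_card, h6]
      exact (set_fintype_card_eq_univ_iff _).1 h11
    apply Equiv.ext
    intro x
    have : x ∈ Function.fixedPoints (X.actΨ m) := by rw [h10]; trivial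
    exact this
  exact X.actΨ_eq_one h9

/-- `ℓ ≥ 11` -/
theorem quot_big [Finite Φ] (X : Ctx K Y T M Φ Ψ P) {l : ℕ} (hl : l.Prime) (h11 : 11 ≤ l)
    {m : M} {k : ℕ} (hm : ((m ^ l ^ k : M) : Y) ∈ T) : (m : Y) ∈ T := by
  classical
  apply X.actΨ_eq_one
  obtain ⟨s, hs⟩ := X.basis
  refine perm_eq_one (ι := Ψ) (fun a b => P a b) ?_ (fun i x => (P (s i) x : ℚ)) ?_ _ ?_ hl h11 (k := k) ?_
  · intro a b h
    have h1 := h b
    rw [X.self] at h1
    exact Subtype.ext (X.two _ _ h1)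
  · intro a
    obtain ⟨c, hc⟩ := hs a
    refine ⟨fun i => (c i : ℚ), fun x => ?_⟩
    rw [hc x]
    push_cast
    rfl
  · intro x y
    exact X.act_P m x y
  · rw [X.actΨ_pow]
    exact X.actΨ_of_mem hm

/-- an `A₂` gives `ℓ² ≤ |T[ℓ]|`, `ℓ ≥ 5` -/
theorem card_two [Finite Y] (X : Ctx K Y T M Φ Ψ P) {l : ℕ} (hl : l.Prime) (h5 : 5 ≤ l)
    (hd : l ∣ Fintype.card K - 1) {a b : Φ} (ha : a ∈ Ψ) (hb : b ∈ Ψ) (hab : P a b = -1) :
    l ^ 2 ≤ Nat.card {t : Y // t ∈ T ∧ t ^ l = 1} := by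
  classical
  have hlf : Fact l.Prime := ⟨hl⟩
  have hu : Fintype.card Kˣ = Fintype.card K - 1 := Fintype.card_units K
  obtain ⟨ζ, hζ⟩ : ∃ ζ : Kˣ, orderOf ζ = l := exists_prime_orderOf_dvd_card l (by rw [hu]; exact hd)
  have hζ3 : ζ ^ l = 1 := by rw [← hζ]; exact pow_orderOf_eq_one ζ
  have hba : P b a = -1 := by rw [X.symm, hab]
  let F : Fin l × Fin l → {t : Y // t ∈ T ∧ t ^ l = 1} := fun i =>
    ⟨X.h a (ζ ^ (i.1 : ℕ)) * X.h b (ζ ^ (i.2 : ℕ)), T.mul_mem (X.h_mem _ _) (X.h_mem _ _), by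
      have hc : Commute (X.h a (ζ ^ (i.1 : ℕ))) (X.h b (ζ ^ (i.2 : ℕ))) := X.comm _ (X.h_mem _ _) _ (X.h_mem _ _)
      rw [hc.mul_pow, ← map_pow, ← map_pow, ← pow_mul, ← pow_mul, mul_comm (i.1 : ℕ), mul_comm (i.2 : ℕ), pow_mul,
        pow_mul, hζ3, one_pow, one_pow, map_one, map_one, one_mul]⟩
  have hχ : ∀ x ∈ Ψ, ∀ i : Fin l × Fin l,
      X.χ x (F i : Y) = ζ ^ ((i.1 : ℤ) * P x a + (i.2 : ℤ) * P x b) := by
    intro x hx i
    change X.χ x (X.h a (ζ ^ (i.1 : ℕ)) * X.h b (ζ ^ (i.2 : ℕ))) = _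
    rw [X.χ_mul x hx _ (X.h_mem _ _) _ (X.h_mem _ _), X.χ_h a ha x hx, X.χ_h b hb x hx]
    rw [zpow_add, ← zpow_natCast, ← zpow_natCast, ← zpow_mul, ← zpow_mul]
  have hF : Function.Injective F := by
    intro i j hij
    have hz : ∀ n : ℤ, ζ ^ n = 1 → (l : ℤ) ∣ n := by
      intro n hn
      have := orderOf_dvd_iff_zpow_eq_one.2 hn
      rwa [hζ] at this
    have key : ∀ x ∈ Ψ, (l : ℤ) ∣ ((i.1 : ℤ) * P x a + (i.2 : ℤ) * P x b) -
        ((j.1 : ℤ) * P x a + (j.2 : ℤ) * P x b) := by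
      intro x hx
      apply hz
      rw [zpow_sub, ← hχ x hx i, ← hχ x hx j, hij, mul_inv_cancel]
    have k1 := key a ha
    have k2 := key b hb
    rw [X.self, hab] at k1
    rw [hba, X.self] at k2
    have hcop : IsCoprime (l : ℤ) 3 := by
      rw [Int.isCoprime_iff_gcd_eq_one]
      have : Nat.Coprime l 3 := (Nat.coprime_primes hl Nat.prime_three).2 (by omega)
      exact this
    have e1 : (l : ℤ) ∣ 3 * ((i.1 : ℤ) - j.1) := by
      have := dvd_add (dvd_mul_of_dvd_right k1 2) k2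
      have h' : (2 : ℤ) * ((i.1 : ℤ) * 2 + (i.2 : ℤ) * (-1) - ((j.1 : ℤ) * 2 + (j.2 : ℤ) * (-1))) +
          ((i.1 : ℤ) * (-1) + (i.2 : ℤ) * 2 - ((j.1 : ℤ) * (-1) + (j.2 : ℤ) * 2)) = 3 * ((i.1 : ℤ) - j.1) := by ring
      rwa [h'] at this
    have e2 : (l : ℤ) ∣ 3 * ((i.2 : ℤ) - j.2) := by
      have := dvd_add k1 (dvd_mul_of_dvd_right k2 2)
      have h' : ((i.1 : ℤ) * 2 + (i.2 : ℤ) * (-1) - ((j.1 : ℤ) * 2 + (j.2 : ℤ) * (-1))) +
          (2 : ℤ) * ((i.1 : ℤ) * (-1) + (i.2 : ℤ) * 2 - ((j.1 : ℤ) * (-1) + (j.2 : ℤ) * 2)) = 3 * ((i.2 : ℤ) - j.2) := by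
        ring
      rwa [h'] at this
    have e1' := hcop.dvd_of_dvd_mul_left e1
    have e2' := hcop.dvd_of_dvd_mul_left e2
    have small : ∀ x y : Fin l, (l : ℤ) ∣ (x : ℤ) - y → x = y := by
      intro x y h
      have h1 : (x : ℤ) - y = 0 := by
        refine Int.eq_zero_of_abs_lt_dvd h ?_
        have := x.2; have := y.2
        rw [abs_lt]
        omega
      exact Fin.ext (by omega)
    exact Prod.ext (small _ _ e1') (small _ _ e2')
  have hc := Nat.card_le_card_of_injective F hF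
  simpa [sq] using hc

/-- strong closure from the structure of `M/T` -/
theorem closed_of_quot (X : Ctx K Y T M Φ Ψ P) {l : ℕ} (hl : l.Prime)
    (h : ∀ m : M, ((m ^ l ^ 1 : M) : Y) ∈ T → (m : Y) ∈ T) {f : Y} (hf : f ∉ M) {t : Y} (ht : t ∈ T)
    (ho : orderOf t = l) : f⁻¹ * t * f ∉ M := by
  intro hm
  have htl : t ^ l = 1 := by rw [← ho]; exact pow_orderOf_eq_one t
  have h1 := h ⟨_, hm⟩ (by
    change (f⁻¹ * t * f) ^ l ^ 1 ∈ T
    have := conj_pow (a := f⁻¹) (b := t) (i := l ^ 1)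
    rw [inv_inv] at this
    rw [this, pow_one, htl]
    simp)
  have h2 := X.ti f hf _ h1 (by
    have : f * (f⁻¹ * t * f) * f⁻¹ = t := by group
    change f * (f⁻¹ * t * f) * f⁻¹ ∈ T
    rw [this]
    exact ht)
  have h3 : t = 1 := by
    have : t = f * (f⁻¹ * t * f) * f⁻¹ := by group
    rw [this]
    change f * (f⁻¹ * t * f) * f⁻¹ = 1
    have h4 : f⁻¹ * t * f = 1 := h2
    rw [h4]
    simp
  rw [h3, orderOf_one] at ho
  exact hl.one_lt.ne ho

/-- **Part 4.1 - 4.3** -/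
theorem even_main [Finite Y] [Finite Φ] (X : Ctx K Y T M Φ Ψ P) {k : ℕ} (hk : 4 ≤ k) (hK : Fintype.card K = 2 ^ k) :
    ∃ l : ℕ, l.Prime ∧ 3 ≤ l ∧ l ∣ Fintype.card K - 1 ∧ (∀ f, f ∉ M → ∀ t ∈ T, orderOf t = l → f⁻¹ * t * f ∉ M) ∧
      ((l = 3 ∧ 27 ≤ Nat.card {t : Y // t ∈ T ∧ t ^ 3 = 1}) ∨
        (5 ≤ l ∧ (∀ m ∈ M, ∀ n : ℕ, m ^ l ^ n ∈ T → m ∈ T) ∧ l ^ 2 ≤ Nat.card {t : Y // t ∈ T ∧ t ^ l = 1})) := by
  have hq : 13 ≤ Fintype.card K := by
    rw [hK]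
    have : 2 ^ 4 ≤ 2 ^ k := Nat.pow_le_pow_right (by norm_num) hk
    omega
  obtain ⟨a, ha, b, hb, hab⟩ := X.rank
  obtain ⟨c, hcm, hc, -⟩ := X.add a ha b hb hab
  have big : ∀ l : ℕ, l.Prime → 5 ≤ l → l ∣ Fintype.card K - 1 →
      (∀ (m : M) (n : ℕ), ((m ^ l ^ n : M) : Y) ∈ T → (m : Y) ∈ T) →
      ∃ l : ℕ, l.Prime ∧ 3 ≤ l ∧ l ∣ Fintype.card K - 1 ∧ (∀ f, f ∉ M → ∀ t ∈ T, orderOf t = l → f⁻¹ * t * f ∉ M) ∧
      ((l = 3 ∧ 27 ≤ Nat.card {t : Y // t ∈ T ∧ t ^ 3 = 1}) ∨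
        (5 ≤ l ∧ (∀ m ∈ M, ∀ n : ℕ, m ^ l ^ n ∈ T → m ∈ T) ∧
          l ^ 2 ≤ Nat.card {t : Y // t ∈ T ∧ t ^ l = 1})) := by
    intro l hl h5 hd hquot
    refine ⟨l, hl, by omega, hd, fun f hf t ht ho => X.closed_of_quot hl (fun m hm => hquot m 1 hm) hf ht ho,
      Or.inr ⟨h5, fun m hm n hn => hquot ⟨m, hm⟩ n hn, X.card_two hl h5 hd ha hb hab⟩⟩
  by_cases h46 : k = 4 ∨ k = 6
  · rcases X.a2_or_a3 ha hb hcm hab hc with hS | ⟨a1, h1, a2, h2, a3, h3, h12, h23, h13⟩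
    · have h6 : Nat.card Ψ = 6 := by
        rw [hS, Nat.card_congr (Equiv.ofInjective _ (X.six_injective hab hc)).symm]
        simp
      rcases h46 with rfl | rfl
      · exact big 5 (by norm_num) (by norm_num) (by rw [hK]; norm_num)
          fun m n hm => X.quot_six h6 (by norm_num) (Or.inl rfl) hm
      · exact big 7 (by norm_num) (by norm_num) (by rw [hK]; norm_num)
          fun m n hm => X.quot_six h6 (by norm_num) (Or.inr rfl) hm
    · have hd : 3 ∣ Fintype.card K - 1 := by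
        rw [hK]
        rcases h46 with rfl | rfl <;> norm_num
      refine ⟨3, by norm_num, le_rfl, hd, fun f hf t ht ho hm => X.three hq hd h1 h2 h3 h12 h23 h13 hf ht ho hm,
        Or.inl ⟨rfl, X.card_V hd h1 h2 h3 h12 h23 h13⟩⟩
  · obtain ⟨l, hl, h11, hd⟩ := exists_big hk (fun h => h46 (Or.inl h)) (fun h => h46 (Or.inr h))
    exact big l hl (by omega) (by rw [hK]; exact hd) fun m n hm => X.quot_big hl h11 hm

end Ctx

end Cfsg.Agent.H712.OT
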