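import Cfsg.Agent.H712.OT.ConcRoots
import Cfsg.Agent.H712.OT.Even

/-!
# S2539, part 4 (q even): the concrete context (helper712)

`Dat K D l Mc F k` : `D ∈ {E6, E7, E8}`, `|K| = 2 ^ k`, `k ≥ 4`, `F` a least bad group, `S_F = ∅`, layer 0 (`H501.OT.Inp`),
`Psi` irreducible of rank at least two.  `Dat.ctx` : the abstract context `Ctx` for `Y = F / Z(F)`, `T / Z(F)`,
`M = N_Y(T / Z(F))`.
-/

set_option autoImplicit false
set_option linter.unusedSectionVars false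

namespace Cfsg.Agent.H712.OT

open Subgroup Cfsg.Lie Cfsg.Agent.H412.OT Cfsg.Agent.H186.OT
open Cfsg.Agent.ChevalleyStructure Cfsg.Agent.ChevalleyStructure.Elts Cfsg.Agent.ChevalleyStructure.NPerm
  Cfsg.Agent.ChevalleyStructure.RootCombGood
open Cfsg.Agent.Nodes.RGDChev
open scoped commutatorElement

universe u

section Defs

variable (D : ChevalleyDatum) (K : Type u) [Field K] (F : Subgroup (GL D.Idx K))

/-- the torus modulo the centre -/
abbrev Tb : Subgroup (F ⧸ center F) := ((D.diagonalSubgroup K).subgroupOf F).map (QuotientGroup.mk' (center F))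

/-- its normaliser -/
abbrev Mb : Subgroup (F ⧸ center F) := normalizer ((Tb D K F : Subgroup (F ⧸ center F)) : Set (F ⧸ center F))

/-- the roots trivial on the centre -/
def Ps : Set (Fin D.nroots) := {r | (r : ℕ) ∈ Psi D K F}

/-- the pairing -/
def PP (D : ChevalleyDatum) (a b : Fin D.nroots) : ℤ := pr D a b

/-- The hypotheses. -/
structure Dat [Fintype K] (l : ℕ) (Mc : CoxeterMatrix (Fin l)) (k : ℕ) : Prop where
  ty : TyE D
  hp : IsType D l Mc
  k4 : 4 ≤ k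
  card : Fintype.card K = 2 ^ k
  inp : H501.OT.Inp D K l hp.inList F
  bad : MinBad D K F
  emp : SF D K F = ∅
  irr : ∀ P₁ P₂ : Set ℕ, P₁.Nonempty → P₂.Nonempty → P₁ ∪ P₂ = Psi D K F →
    (∀ a ∈ P₁, ∀ b ∈ P₂, pr D a b = 0) → False
  rk : ∃ a ∈ Psi D K F, ∃ b ∈ Psi D K F, b ≠ a ∧ b ≠ D.neg a

end Defs

section Perm

variable {D : ChevalleyDatum} {K : Type u} [Field K]

open scoped Classical in
/-- the action of the elements of `N` on the roots, extended by `1` -/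
noncomputable def pm (hD : InList D) (g : GL D.Idx K) : Equiv.Perm (Fin D.nroots) :=
  if h : g ∈ D.monomialSubgroup K then permHom hD K ⟨g, h⟩ else 1

theorem pm_eq (hD : InList D) {g : GL D.Idx K} (h : g ∈ D.monomialSubgroup K) : pm hD g = permHom hD K ⟨g, h⟩ :=
  dif_pos h

theorem pm_mul (hD : InList D) {g g' : GL D.Idx K} (h : g ∈ D.monomialSubgroup K) (h' : g' ∈ D.monomialSubgroup K) :
    pm hD (g * g') = pm hD g * pm hD g' := by
  rw [pm_eq hD h, pm_eq hD h', pm_eq hD (mul_mem h h'), ← map_mul]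
  rfl

theorem pm_tor (hD : InList D) {g : GL D.Idx K} (h : g ∈ D.diagonalSubgroup K) : pm hD g = 1 := by
  rw [pm_eq hD (diagonal_le_monomial D K h)]
  exact permHom_diagonal hD h

end Perm

namespace Dat

variable {D : ChevalleyDatum} {K : Type u} [Field K] [Fintype K] {F : Subgroup (GL D.Idx K)} {l : ℕ}
  {Mc : CoxeterMatrix (Fin l)} {k : ℕ} (d : Dat D K F l Mc k)

include d

theorem hD : InList D := d.hp.inList

theorem q16 : 16 ≤ Fintype.card K := by
  rw [d.card]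
  calc 16 = 2 ^ 4 := by norm_num
    _ ≤ 2 ^ k := Nat.pow_le_pow_right (by norm_num) d.k4

theorem good : Good D := RootComb.good_of_mem d.ty.five.mem

theorem c298 : H298.OT.Ctx ((D.diagonalSubgroup K).subgroupOf F) :=
  H501.OT.ctx d.inp d.bad d.emp (by have := d.q16; omega) d.hp d.rk

theorem core : H298.OT.Core (Tb D K F) := d.c298.core

theorem mono {x : GL D.Idx K} (hx : x ∈ F) (hN : x ∈ normalizer (D.diagonalSubgroup K : Set (GL D.Idx K))) :
    x ∈ D.monomialSubgroup K := d.inp.mono x (d.bad.le hx) hN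

theorem mk_mem_Mb {x : F} : QuotientGroup.mk' (center F) x ∈ Mb D K F ↔
    (x : GL D.Idx K) ∈ normalizer (D.diagonalSubgroup K : Set (GL D.Idx K)) := by
  rw [d.c298.mk_mem_normalizer_iff, mem_normalizer_subgroupOf d.bad.tor]

theorem mk_mem_Tb {x : F} : QuotientGroup.mk' (center F) x ∈ Tb D K F ↔ (x : GL D.Idx K) ∈ D.diagonalSubgroup K := by
  rw [d.c298.mk_mem_iff]
  rfl

omit d in
theorem mk_eq_one {x : F} : QuotientGroup.mk' (center F) x = 1 ↔ (x : GL D.Idx K) ∈ Zf F := by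
  rw [H298.OT.Ctx.mk_eq_one_iff, ← coe_mem_Zf]

omit d in
theorem mk_eq_mk {x y : F} (h : QuotientGroup.mk' (center F) x = QuotientGroup.mk' (center F) y) :
    ((x : GL D.Idx K))⁻¹ * y ∈ Zf F := by
  have h1 : QuotientGroup.mk' (center F) (x⁻¹ * y) = 1 := by rw [map_mul, map_inv, h, inv_mul_cancel]
  rw [mk_eq_one] at h1
  exact h1

omit d in
/-- a lift -/
theorem exists_lift (y : F ⧸ center F) : ∃ x : F, QuotientGroup.mk' (center F) x = y :=
  QuotientGroup.mk'_surjective _ y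

theorem Zf_le : Zf F ≤ D.diagonalSubgroup K := H501.OT.Zf_le d.inp d.bad d.emp

theorem pm_mk {x y : F} (h : QuotientGroup.mk' (center F) x = QuotientGroup.mk' (center F) y)
    (hx : (x : GL D.Idx K) ∈ normalizer (D.diagonalSubgroup K : Set (GL D.Idx K))) :
    pm d.hD (y : GL D.Idx K) = pm d.hD (x : GL D.Idx K) := by
  have h1 := mk_eq_mk h
  have h2 : (y : GL D.Idx K) = x * ((x : GL D.Idx K)⁻¹ * y) := by group
  rw [h2, pm_mul d.hD (d.mono x.2 hx) (diagonal_le_monomial D K (d.Zf_le h1)), pm_tor d.hD (d.Zf_le h1), mul_one]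

/-- the action of `M` on the roots -/
noncomputable def act : Mb D K F →* Equiv.Perm (Fin D.nroots) where
  toFun m := pm d.hD ((exists_lift (m : F ⧸ center F)).choose : GL D.Idx K)
  map_one' := by
    have h1 := (exists_lift ((1 : Mb D K F) : F ⧸ center F)).choose_spec
    rw [Subgroup.coe_one, mk_eq_one] at h1
    exact pm_tor d.hD (d.Zf_le h1)
  map_mul' m n := by
    have h1 := (exists_lift ((m * n : Mb D K F) : F ⧸ center F)).choose_spec
    have h2 := (exists_lift (m : F ⧸ center F)).choose_spec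
    have h3 := (exists_lift (n : F ⧸ center F)).choose_spec
    have n1 := m.2
    have n2 := n.2
    have n3 := (m * n).2
    rw [← h1, d.mk_mem_Mb] at n3
    rw [← h2, d.mk_mem_Mb] at n1
    rw [← h3, d.mk_mem_Mb] at n2
    rw [← pm_mul d.hD (d.mono (SetLike.coe_mem _) n1) (d.mono (SetLike.coe_mem _) n2), ← Subgroup.coe_mul]
    refine d.pm_mk ?_ ?_
    · rw [map_mul, h1, h2, h3, Subgroup.coe_mul]
    · rw [Subgroup.coe_mul]
      exact mul_mem n1 n2

theorem act_mk {m : Mb D K F} {x : F} (h : QuotientGroup.mk' (center F) x = m) : d.act m = pm d.hD (x : GL D.Idx K) := by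
  have h2 := (exists_lift (m : F ⧸ center F)).choose_spec
  have hx : (x : GL D.Idx K) ∈ normalizer (D.diagonalSubgroup K : Set (GL D.Idx K)) := by
    rw [← d.mk_mem_Mb, h]
    exact m.2
  exact d.pm_mk (h.trans h2.symm) hx

/-- lifts of the elements of `M` -/
theorem exists_lift_M (m : Mb D K F) : ∃ x : F, QuotientGroup.mk' (center F) x = m ∧
    (x : GL D.Idx K) ∈ normalizer (D.diagonalSubgroup K : Set (GL D.Idx K)) := by
  obtain ⟨x, hx⟩ := exists_lift (m : F ⧸ center F)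
  refine ⟨x, hx, ?_⟩
  rw [← d.mk_mem_Mb, hx]
  exact m.2

/-- the torus element as an element of `Y` -/
def tt {t : GL D.Idx K} (ht : t ∈ D.diagonalSubgroup K) : F ⧸ center F :=
  QuotientGroup.mk' (center F) ⟨t, d.bad.tor ht⟩

theorem tt_mem {t : GL D.Idx K} (ht : t ∈ D.diagonalSubgroup K) : d.tt ht ∈ Tb D K F := ⟨_, ht, rfl⟩

theorem exists_tt {y : F ⧸ center F} (hy : y ∈ Tb D K F) : ∃ (t : GL D.Idx K) (ht : t ∈ D.diagonalSubgroup K),
    y = d.tt ht := by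
  obtain ⟨x, hx, rfl⟩ := hy
  exact ⟨x, hx, rfl⟩

theorem tt_mul {s t : GL D.Idx K} (hs : s ∈ D.diagonalSubgroup K) (ht : t ∈ D.diagonalSubgroup K) :
    d.tt hs * d.tt ht = d.tt (mul_mem hs ht) := by
  unfold tt
  rw [← map_mul]
  rfl

open scoped Classical in
/-- root characters -/
noncomputable def chiY (b : Fin D.nroots) (y : F ⧸ center F) : Kˣ :=
  if h : ∃ (t : GL D.Idx K) (ht : t ∈ D.diagonalSubgroup K), y = d.tt ht then
    Units.mk0 (chi D K h.choose b) (chi_ne_zero d.hD h.choose_spec.choose b) else 1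

theorem chiY_tt {b : Fin D.nroots} (hb : b ∈ Ps D K F) {t : GL D.Idx K} (ht : t ∈ D.diagonalSubgroup K) :
    ((d.chiY b (d.tt ht) : Kˣ) : K) = chi D K t b := by
  have h : ∃ (t' : GL D.Idx K) (ht' : t' ∈ D.diagonalSubgroup K), d.tt ht = d.tt ht' := ⟨t, ht, rfl⟩
  rw [chiY, dif_pos h, Units.val_mk0]
  obtain ⟨ht', h2⟩ := h.choose_spec
  have h3 := mk_eq_mk h2
  have e : h.choose = t * (t⁻¹ * h.choose) := by group
  rw [e, chi_mul d.hD ht (d.Zf_le h3), hb.2 _ h3, mul_one]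

/-- coroots -/
noncomputable def hh (a : Fin D.nroots) : Kˣ →* F ⧸ center F :=
  MonoidHom.mk' (fun c => d.tt (hG_mem d.hD a.2 c.ne_zero)) fun c c' => by
    rw [d.tt_mul]
    unfold tt
    congr 2
    rw [Units.val_mul]
    exact hG_mul d.hD a.2 c.ne_zero c'.ne_zero

theorem hh_apply (a : Fin D.nroots) (c : Kˣ) : d.hh a c = d.tt (hG_mem d.hD a.2 c.ne_zero) := rfl

/-- negative root -/
def ng (a : Fin D.nroots) : Fin D.nroots := ⟨D.neg a, RootWord.neg_lt d.good a.2⟩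

theorem ng_mem {a : Fin D.nroots} (ha : a ∈ Ps D K F) : d.ng a ∈ Ps D K F := by
  refine ⟨(d.ng a).2, fun z hz => ?_⟩
  show chi D K z (D.neg a) = 1
  rw [chi_neg d.hD d.good (d.Zf_le hz) a.2, ha.2 z hz, inv_one]

omit d in
theorem mem_of_conj {x z : GL D.Idx K} (hx : x ∈ F) (hz : z ∈ Zf F) : x * z * x⁻¹ = z := by
  rw [mul_inv_eq_iff_eq_mul]
  exact (mem_Zf.1 hz).2 x hx

theorem chi_pm {n : GL D.Idx K} (hn : n ∈ D.monomialSubgroup K) {t : GL D.Idx K} (ht : t ∈ D.diagonalSubgroup K)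
    (s : Fin D.nroots) : chi D K (n * t * n⁻¹) (pm d.hD n s : Fin D.nroots) = chi D K t s := by
  rw [pm_eq d.hD hn]
  exact d.inp.chi ⟨n, hn⟩ t ht s

theorem pm_mem {x : GL D.Idx K} (hx : x ∈ F) (hN : x ∈ normalizer (D.diagonalSubgroup K : Set (GL D.Idx K)))
    {s : Fin D.nroots} (hs : s ∈ Ps D K F) : pm d.hD x s ∈ Ps D K F := by
  refine ⟨(pm d.hD x s).2, fun z hz => ?_⟩
  have h1 := d.chi_pm (d.mono hx hN) (d.Zf_le hz) s
  rw [mem_of_conj hx hz] at h1
  rw [h1]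
  exact hs.2 z hz

/-- an element of `N_F(T)` fixing `Psi` is in `T` -/
theorem mem_tor {n : GL D.Idx K} (hn : n ∈ F) (hN : n ∈ normalizer (D.diagonalSubgroup K : Set (GL D.Idx K)))
    (hfix : ∀ s ∈ Ps D K F, pm d.hD n s = s) : n ∈ D.diagonalSubgroup K := by
  refine H501.OT.ql d.inp d.bad d.emp (by have := d.q16; omega) d.hp hn hN fun t ht => ?_
  have hnt : n * t * n⁻¹ ∈ D.diagonalSubgroup K := (mem_normalizer_iff.1 hN t).1 ht
  have hc : ⁅t, n⁆ ∈ D.diagonalSubgroup K := by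
    have e : ⁅t, n⁆ = t * (n * t * n⁻¹)⁻¹ := by
      rw [commutatorElement_def]; group
    rw [e]
    exact mul_mem ht (inv_mem hnt)
  have hz : ⁅t, n⁆ ∈ Zf F := by
    rw [H501.OT.mem_Zf_iff d.inp d.bad d.emp hc]
    intro a ha
    have e : ⁅t, n⁆ * (n * t * n⁻¹) = t := by
      rw [commutatorElement_def]; group
    have h1 := chi_mul d.hD hc hnt a
    have h2 := d.chi_pm (d.mono hn hN) ht ⟨a, ha.1⟩
    rw [hfix ⟨a, ha.1⟩ ha] at h2
    rw [e] at h1
    have h3 : chi D K t a = chi D K ⁅t, n⁆ a * chi D K t a := by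
      rw [← h2] at h1 ⊢
      exact h1
    have h4 := chi_ne_zero d.hD ht a
    exact (mul_eq_right₀ h4).1 h3.symm
  have e : ⁅⁅t, n⁆, n⁆ = 1 := by
    rw [commutatorElement_eq_one_iff_mul_comm]
    exact ((mem_Zf.1 hz).2 n hn).symm
  rw [e]
  exact one_mem _

theorem P_symm (a b : Fin D.nroots) : PP D a b = PP D b a := d.ty.symm a.2 b.2

theorem P_abs (a b : Fin D.nroots) : |PP D a b| ≤ 2 := by
  have h := d.ty.five.bound a.2 b.2
  exact abs_le.2 h

theorem P_two (a b : Fin D.nroots) (h : PP D a b = 2) : a = b := by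
  refine Fin.ext (H428.OT.eq_of_pr d.hD a.2 b.2 h ?_)
  rw [← d.ty.symm a.2 b.2]
  exact h

theorem P_neg (a b : Fin D.nroots) : PP D (d.ng a) b = - PP D a b := d.ty.five.neg_left a.2

theorem P_one {a b : Fin D.nroots} (h1 : b ≠ a) (h2 : b ≠ d.ng a) : |PP D a b| ≤ 1 :=
  (H428.OT.isLong_of_mem d.ty.mem_four a.2).2 b b.2 (fun h => h1 (Fin.ext h)) (fun h => h2 (Fin.ext h))

theorem P_pm {n : GL D.Idx K} (hn : n ∈ D.monomialSubgroup K) (a b : Fin D.nroots) :
    PP D (pm d.hD n a) (pm d.hD n b) = PP D a b := by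
  rw [pm_eq d.hD hn]
  exact H501.OT.pr_perm d.hp ⟨n, hn⟩ a b

theorem irred (S : Set (Fin D.nroots)) (hS : S ⊆ Ps D K F) (hne : S.Nonempty) (hS' : S ≠ Ps D K F) :
    ∃ a ∈ S, ∃ b ∈ Ps D K F, b ∉ S ∧ PP D a b ≠ 0 := by
  by_contra hcon
  push Not at hcon
  obtain ⟨a, ha⟩ := hne
  obtain ⟨b, hb, hbS⟩ : ∃ b ∈ Ps D K F, b ∉ S := by
    by_contra h
    push Not at h
    exact hS' (Set.Subset.antisymm hS h)
  refine d.irr (Fin.val '' S) (Fin.val '' (Ps D K F \ S)) ⟨a, a, ha, rfl⟩ ⟨b, b, ⟨hb, hbS⟩, rfl⟩ ?_ ?_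
  · ext r
    constructor
    · rintro (⟨x, hx, rfl⟩ | ⟨x, hx, rfl⟩)
      · exact hS hx
      · exact hx.1
    · intro hr
      by_cases h : (⟨r, hr.1⟩ : Fin D.nroots) ∈ S
      · exact Or.inl ⟨_, h, rfl⟩
      · exact Or.inr ⟨⟨r, hr.1⟩, ⟨hr, h⟩, rfl⟩
  · rintro _ ⟨x, hx, rfl⟩ _ ⟨y, hy, rfl⟩
    exact hcon x hx y hy.1 hy.2

theorem ng_ng (a : Fin D.nroots) : d.ng (d.ng a) = a := Fin.ext (RootWord.neg_neg d.good a.2)

theorem rank' : ∃ a ∈ Ps D K F, ∃ b ∈ Ps D K F, PP D a b = -1 := by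
  obtain ⟨a, ha, b, hb, h1, h2⟩ := d.rk
  set a' : Fin D.nroots := ⟨a, ha.1⟩ with ha'
  set b' : Fin D.nroots := ⟨b, hb.1⟩ with hb'
  have haP : a' ∈ Ps D K F := ha
  obtain ⟨x, hx, y, hy, hyS, hxy⟩ := d.irred {a', d.ng a'}
    (by
      rintro r (rfl | rfl)
      · exact haP
      · exact d.ng_mem haP)
    ⟨a', Or.inl rfl⟩
    (by
      intro h
      have h3 : b' ∈ Ps D K F := hb
      rw [← h] at h3
      rcases h3 with h3 | h3
      · exact h1 (congrArg Fin.val h3)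
      · exact h2 (congrArg Fin.val h3))
  have hxP : x ∈ Ps D K F := by
    rcases hx with rfl | rfl
    · exact haP
    · exact d.ng_mem haP
  have hy1 : y ≠ x := by
    rintro rfl
    exact hyS hx
  have hy2 : y ≠ d.ng x := by
    rintro rfl
    apply hyS
    rcases hx with rfl | rfl
    · exact Or.inr rfl
    · rw [d.ng_ng]
      exact Or.inl rfl
  have h3 := abs_le.1 (d.P_one hy1 hy2)
  have h4 : PP D x y = -1 ∨ PP D x y = 1 := by omega
  rcases h4 with h4 | h4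
  · exact ⟨x, hxP, y, hy, h4⟩
  · refine ⟨d.ng x, d.ng_mem hxP, y, hy, ?_⟩
    rw [d.P_neg, h4]

theorem add {a b : Fin D.nroots} (ha : a ∈ Ps D K F) (hb : b ∈ Ps D K F) (h : PP D a b = -1) :
    ∃ c ∈ Ps D K F, (∀ x, PP D c x = PP D a x + PP D b x) ∧
      ∀ t ∈ Tb D K F, d.chiY c t = d.chiY a t * d.chiY b t := by
  have h1 : pr D b a = -1 := by
    rw [← d.ty.symm a.2 b.2]
    exact h
  obtain ⟨c, hc, hcar⟩ := exists_sum d.good b.2 a a.2 h1
  have hcP : (⟨c, hc⟩ : Fin D.nroots) ∈ Ps D K F := by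
    refine ⟨hc, fun z hz => ?_⟩
    show chi D K z c = 1
    rw [chi_add d.hD (d.Zf_le hz) a.2 b.2 hc hcar, ha.2 z hz, hb.2 z hz, mul_one]
  refine ⟨⟨c, hc⟩, hcP, fun x => ?_, fun t ht => ?_⟩
  · rw [d.P_symm _ x, d.P_symm a x, d.P_symm b x]
    exact pr_add hcar x
  · obtain ⟨t', ht', rfl⟩ := d.exists_tt ht
    apply Units.ext
    rw [Units.val_mul, d.chiY_tt hcP, d.chiY_tt ha, d.chiY_tt hb]
    exact chi_add d.hD ht' a.2 b.2 hc hcar

/-- the smallest divisor of `2 ^ 4 - 1 = 15` -/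
theorem kwin : 4 * 4 ≤ Fintype.card K - 1 ∨ ∃ s : ℕ, (∀ e : ℕ, e ∣ Fintype.card K - 1 → e ≠ 1 → s ≤ e) ∧
      s * (2 * 4) < (s - 1) * (Fintype.card K - 1) := by
  have h := d.q16
  by_cases h1 : Fintype.card K = 16
  · right
    refine ⟨3, fun e he h2 => ?_, by rw [h1]; norm_num⟩
    rw [h1] at he
    have h3 : e ≤ 15 := Nat.le_of_dvd (by norm_num) he
    interval_cases e <;> omega
  · left
    omega

theorem KK (f : F ⧸ center F) (hf : f ∉ Mb D K F) (m : Mb D K F) (hm : m ≠ 1)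
    (hfm : f * (m : F ⧸ center F) * f⁻¹ ∈ Tb D K F) (L : List (Fin D.nroots))
    (h1 : ∀ x, (L.map fun a => PP D x (d.act m a)).sum = (L.map fun a => PP D x a).sum)
    (h2 : ∀ x, |(L.map fun a => PP D x a).sum| ≤ 4) {a : Fin D.nroots} (ha : a ∈ Ps D K F) :
    (L.map fun b => PP D a b).sum = 0 := by
  obtain ⟨g, rfl⟩ := exists_lift f
  obtain ⟨x, hx, hxN⟩ := d.exists_lift_M m
  rw [d.mk_mem_Mb] at hf
  rw [← hx, ← map_inv, ← map_mul, ← map_mul, d.mk_mem_Tb] at hfm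
  have hxZ : (x : GL D.Idx K) ∉ Zf F := by
    intro h
    apply hm
    rw [← mk_eq_one, hx] at h
    exact Subtype.ext h
  have hxm := d.mono x.2 hxN
  have hact := d.act_mk hx
  rw [hact] at h1
  have hsum : ∀ y : Fin D.nroots, ((L.map Fin.val).map fun r => pr D r y).sum = (L.map fun a => PP D y a).sum := by
    intro y
    rw [List.map_map]
    congr 1
    refine List.map_congr_left fun r _ => ?_
    exact d.P_symm r y
  have hlt : ∀ r ∈ L.map Fin.val, r < D.nroots := by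
    intro r hr
    obtain ⟨s, -, rfl⟩ := List.mem_map.1 hr
    exact s.2
  let w : ℕ → ℕ := fun r => if h : r < D.nroots then (pm d.hD (x : GL D.Idx K) ⟨r, h⟩ : ℕ) else r
  have hw : ∀ s : Fin D.nroots, w s = pm d.hD (x : GL D.Idx K) s := fun s => dif_pos s.2
  have hfix : ∀ c : K, c ≠ 0 → (x : GL D.Idx K) * H893.OT.hL d.hD (L.map Fin.val) c =
      H893.OT.hL d.hD (L.map Fin.val) c * (x : GL D.Idx K) := by
    intro c hc
    refine H893.OT.comm_hL d.hD hxN (w := w) ?_ ?_ hlt ?_ hc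
    · intro s hs
      refine ⟨(pm d.hD (x : GL D.Idx K)).symm ⟨s, hs⟩, Fin.is_lt _, ?_⟩
      rw [hw, Equiv.apply_symm_apply]
    · intro t ht s hs
      have h3 := d.chi_pm hxm ht ⟨s, hs⟩
      rw [← hw ⟨s, hs⟩] at h3
      exact h3
    · intro y hy
      have e1 := hsum ⟨y, hy⟩
      have e2 := hsum (pm d.hD (x : GL D.Idx K) ⟨y, hy⟩)
      have e3 := h1 (pm d.hD (x : GL D.Idx K) ⟨y, hy⟩)
      rw [show w y = (pm d.hD (x : GL D.Idx K) ⟨y, hy⟩ : Fin D.nroots) from hw ⟨y, hy⟩, e2, ← e3]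
      refine Eq.trans ?_ e1.symm
      congr 1
      refine List.map_congr_left fun r _ => ?_
      exact d.P_pm hxm ⟨y, hy⟩ r
  have hk := H893.OT.kprime d.hD d.bad d.emp (fun g hg => d.inp.lt2 g (d.bad.le hg))
    (fun x hx hc => d.inp.cent x (d.bad.le hx) fun t ht => (hc t ht).symm) g.2 hf hfm hxZ hlt hfix (w := 4) d.kwin
    (by
      intro y hy
      rw [hsum ⟨y, hy⟩]
      exact h2 ⟨y, hy⟩) a ha
  rw [← hsum a]
  exact hk

theorem basis : ∃ s : Fin 8 → Fin D.nroots, ∀ a, ∃ c : Fin 8 → ℤ, ∀ x, PP D a x = ∑ i, c i * PP D (s i) x := by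
  have G := d.good
  have hr := G.rank_pos
  refine ⟨fun i => ⟨D.simple (i % D.rank), G.simple_lt (Nat.mod_lt _ hr)⟩, fun a =>
    ⟨fun i => if (i : ℕ) < D.rank then co D a i else 0, fun x => ?_⟩⟩
  show car D a x = ∑ i : Fin 8, (if (i : ℕ) < D.rank then co D a i else 0) * car D (D.simple (i % D.rank)) x
  rw [Fin.sum_univ_eq_sum_range (fun i => (if i < D.rank then co D a i else 0) * car D (D.simple (i % D.rank)) x) 8]
  rw [← Finset.sum_subset (Finset.range_mono d.ty.rank_le) (fun i _ hi => by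
    rw [Finset.mem_range] at hi
    rw [if_neg hi, zero_mul])]
  refine Finset.sum_congr rfl fun i hi => ?_
  rw [Finset.mem_range] at hi
  rw [if_pos hi, Nat.mod_eq_of_lt hi, RootWord.car_simple G hi]

/-- **The concrete context.** -/
noncomputable def ctx : Ctx K (F ⧸ center F) (Tb D K F) (Mb D K F) (Fin D.nroots) (Ps D K F) (PP D) where
  TM := le_normalizer
  comm := d.core.comm
  symm := d.P_symm
  self a := d.ty.five.self a.2
  P_abs := d.P_abs
  two := d.P_two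
  neg := d.ng
  P_neg := d.P_neg
  neg_mem _ ha := d.ng_mem ha
  act := d.act
  act_P m x y := by
    obtain ⟨g, hg, hgN⟩ := d.exists_lift_M m
    rw [d.act_mk hg]
    exact d.P_pm (d.mono g.2 hgN) x y
  act_mem m x hx := by
    obtain ⟨g, hg, hgN⟩ := d.exists_lift_M m
    rw [d.act_mk hg]
    exact d.pm_mem g.2 hgN hx
  act_T m := by
    obtain ⟨g, hg, hgN⟩ := d.exists_lift_M m
    rw [← hg, d.mk_mem_Tb, d.act_mk hg]
    constructor
    · intro h x _
      rw [pm_tor d.hD h]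
      rfl
    · exact d.mem_tor g.2 hgN
  h := d.hh
  h_mem a c := d.tt_mem (hG_mem d.hD a.2 c.ne_zero)
  χ := d.chiY
  χ_mul a ha s hs t ht := by
    obtain ⟨s', hs', rfl⟩ := d.exists_tt hs
    obtain ⟨t', ht', rfl⟩ := d.exists_tt ht
    apply Units.ext
    rw [d.tt_mul, Units.val_mul, d.chiY_tt ha, d.chiY_tt ha, d.chiY_tt ha, chi_mul d.hD hs' ht']
  χ_h a _ b hb c := by
    apply Units.ext
    rw [d.hh_apply, d.chiY_tt hb, chi_hG d.hD a.2 b.2 c.ne_zero, Units.val_zpow_eq_zpow_val, d.ty.symm a.2 b.2]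
    rfl
  χ_inj t ht hc := by
    obtain ⟨t', ht', rfl⟩ := d.exists_tt ht
    refine mk_eq_one.2 ((H501.OT.mem_Zf_iff d.inp d.bad d.emp ht').2 fun a ha => ?_)
    have h1 := hc ⟨a, ha.1⟩ ha
    have h2 := d.chiY_tt (b := ⟨a, ha.1⟩) ha ht'
    rw [h1, Units.val_one] at h2
    exact h2.symm
  χ_act m b hb t ht := by
    obtain ⟨t', ht', rfl⟩ := d.exists_tt ht
    obtain ⟨g, hg, hgN⟩ := d.exists_lift_M m
    have hgt : (g : GL D.Idx K) * t' * (g : GL D.Idx K)⁻¹ ∈ D.diagonalSubgroup K := (mem_normalizer_iff.1 hgN t').1 ht'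
    have e : (m : F ⧸ center F) * d.tt ht' * (m : F ⧸ center F)⁻¹ = d.tt hgt := by
      rw [← hg]
      unfold tt
      rw [← map_inv, ← map_mul, ← map_mul]
      rfl
    apply Units.ext
    rw [e, d.act_mk hg, d.chiY_tt (d.pm_mem g.2 hgN hb), d.chiY_tt hb]
    exact d.chi_pm (d.mono g.2 hgN) ht' b
  conj_mem m hm t ht := (mem_normalizer_iff.1 hm t).1 ht
  χ_neg a ha t ht := by
    obtain ⟨t', ht', rfl⟩ := d.exists_tt ht
    apply Units.ext
    rw [d.chiY_tt (d.ng_mem ha), Units.val_inv_eq_inv_val, d.chiY_tt ha]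
    exact chi_neg d.hD d.good ht' a.2
  add a ha b hb h := d.add ha hb h
  ti f hf t ht hft := by
    by_contra h1
    exact hf (d.core.ti t ht h1 f hft)
  cent t ht h1 g hg := d.core.cent_le ht h1 hg
  irred := d.irred
  rank := d.rank'
  KK f hf m hm hfm L h1 h2 a ha := by
    rw [d.KK f hf m hm hfm L h1 h2 ha]
    exact dvd_zero _
  basis := d.basis

/-- **Parts 4.1 - 4.3 for the concrete context.** -/
theorem even : ∃ r : ℕ, r.Prime ∧ 3 ≤ r ∧ r ∣ Fintype.card K - 1 ∧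
    (∀ f, f ∉ Mb D K F → ∀ t ∈ Tb D K F, orderOf t = r → f⁻¹ * t * f ∉ Mb D K F) ∧
    ((r = 3 ∧ 27 ≤ Nat.card {t // t ∈ Tb D K F ∧ t ^ 3 = 1}) ∨
      (5 ≤ r ∧ (∀ m ∈ Mb D K F, ∀ n, m ^ r ^ n ∈ Tb D K F → m ∈ Tb D K F) ∧
        r ^ 2 ≤ Nat.card {t // t ∈ Tb D K F ∧ t ^ r = 1})) :=
  d.ctx.even_main d.k4 d.card

/-- `N_F(T) ∩ T ^ g` has no element of order `r` modulo `Z(F)`. -/
theorem noElF {r : ℕ} (hr : r.Prime)
    (h : ∀ f, f ∉ Mb D K F → ∀ t ∈ Tb D K F, orderOf t = r → f⁻¹ * t * f ∉ Mb D K F) : NoElF D K F r := by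
  intro g hg hgN m hm hmN hgm hmr
  by_contra hmZ
  have hgN' : QuotientGroup.mk' (center F) ⟨g, hg⟩ ∉ Mb D K F := by
    rw [d.mk_mem_Mb]
    exact hgN
  have e0 : QuotientGroup.mk' (center F) (⟨g, hg⟩ * ⟨m, hm⟩ * ⟨g, hg⟩⁻¹ : F) =
      QuotientGroup.mk' (center F) ⟨g, hg⟩ * QuotientGroup.mk' (center F) ⟨m, hm⟩ *
        (QuotientGroup.mk' (center F) ⟨g, hg⟩)⁻¹ := by
    rw [map_mul, map_mul, map_inv]
  have hT : QuotientGroup.mk' (center F) ⟨g, hg⟩ * QuotientGroup.mk' (center F) ⟨m, hm⟩ *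
        (QuotientGroup.mk' (center F) ⟨g, hg⟩)⁻¹ ∈ Tb D K F := by
    rw [← e0, d.mk_mem_Tb]
    exact hgm
  have hm1 : QuotientGroup.mk' (center F) ⟨m, hm⟩ ≠ 1 := fun h1 => hmZ (mk_eq_one.1 h1)
  have hmp : (QuotientGroup.mk' (center F) ⟨m, hm⟩) ^ r = 1 := by
    rw [← map_pow, mk_eq_one]
    exact hmr
  have : Fact r.Prime := ⟨hr⟩
  have ho : orderOf (QuotientGroup.mk' (center F) ⟨g, hg⟩ * QuotientGroup.mk' (center F) ⟨m, hm⟩ *
        (QuotientGroup.mk' (center F) ⟨g, hg⟩)⁻¹) = r := by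
    refine orderOf_eq_prime ?_ ?_
    · rw [conj_pow, hmp, mul_one, mul_inv_cancel]
    · intro h1
      rw [mul_inv_eq_one, mul_eq_left] at h1
      exact hm1 h1
  refine h _ hgN' _ hT ho ?_
  have e1 : (QuotientGroup.mk' (center F) ⟨g, hg⟩)⁻¹ *
      (QuotientGroup.mk' (center F) ⟨g, hg⟩ * QuotientGroup.mk' (center F) ⟨m, hm⟩ *
        (QuotientGroup.mk' (center F) ⟨g, hg⟩)⁻¹) * QuotientGroup.mk' (center F) ⟨g, hg⟩ =
      QuotientGroup.mk' (center F) ⟨m, hm⟩ := by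
    group
  rw [e1, d.mk_mem_Mb]
  exact hmN

end Dat

end Cfsg.Agent.H712.OT
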