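import Cfsg.Agent.H712.OT.Conc
import Cfsg.Agent.H3.OT.Refl
import Cfsg.Agent.H48.OT.PsiIrr
import Cfsg.Agent.H194.OT.RankOneEnd

/-!
# S2539, part 4 (q even): the hypotheses `Dat` hold (helper712)

`exists_dat` : `Hyp K 2 D`, `CharP K 2`, `F` a least bad group with `S_F = ∅`: `Dat D K F l Mc k` for some `l`, `Mc`, `k`.
-/

set_option autoImplicit false

namespace Cfsg.Agent.H712.OT

open Subgroup Cfsg.Lie Cfsg.Agent.H412.OT Cfsg.Agent.H186.OT
open Cfsg.Agent.ChevalleyStructure Cfsg.Agent.ChevalleyStructure.Elts Cfsg.Agent.ChevalleyStructure.NPerm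
open Cfsg.Agent.Nodes.RGDChev

universe u

variable {D : ChevalleyDatum} {K : Type u} [Field K] {F : Subgroup (GL D.Idx K)}

/-- layer 0 -/
theorem mkInp [Fintype K] {p : ℕ} (hy : Hyp K p D) (h : MinBad D K F) {l : ℕ} {M : CoxeterMatrix (Fin l)}
    (hp : IsType D l M) : H501.OT.Inp D K l hp.inList F := by
  have hK := hy.card
  have cent : ∀ g ∈ D.group K, (∀ t ∈ D.diagonalSubgroup K, t * g = g * t) → g ∈ D.diagonalSubgroup K :=
    fun g hg hc => H428.OT.mem_tor_of_comm (by omega) hy.inList hg fun t ht => (hc t ht).symm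
  have hZ : Zf F ≤ D.diagonalSubgroup K := by
    intro z hz
    obtain ⟨hz1, hz2⟩ := mem_Zf.1 hz
    exact cent z (h.le hz1) fun t ht => hz2 t (h.tor ht)
  exact
    { cent := cent
      lt2 := fun g hg hc => H428.OT.lt_tor_norm (by omega) hy.mem hg hc
      mono := fun n hn hN => H3.OT.mem_monomial_of_norm hp.inList
        (by rw [Nat.card_eq_fintype_card]; omega) hn hN
      chi := fun n t ht s => H3.OT.chi_perm hp.inList n ht s
      refl := fun n hn s => H3.OT.refl_Psi (by rw [Nat.card_eq_fintype_card]; omega) hp hZ n hn s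
      norm := H3.OT.cent_le_norm hp.inList hZ }

/-- the order of a finite field of characteristic two -/
theorem exists_two_pow [Fintype K] [CharP K 2] (hK : 13 ≤ Fintype.card K) : ∃ k, 4 ≤ k ∧ Fintype.card K = 2 ^ k := by
  obtain ⟨⟨k, hk⟩, -, hc⟩ := FiniteField.card K 2
  refine ⟨k, ?_, hc⟩
  rw [hc] at hK
  by_contra hcon
  have : 2 ^ k ≤ 2 ^ 3 := Nat.pow_le_pow_right (by norm_num) (by omega)
  have h2 : 13 ≤ 2 ^ k := hK
  omega

theorem tyE_of_hyp [Fintype K] (hy : Hyp K 2 D) : TyE D := by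
  have h1 := hy.mem
  have h2 := hy.ne2
  simp only [List.mem_cons, List.not_mem_nil, or_false] at h1 h2
  rcases h1 with h | h | h | h | h | h
  · exact absurd rfl (h2 (Or.inl h))
  · exact absurd rfl (h2 (Or.inr (Or.inl h)))
  · exact absurd rfl (h2 (Or.inr (Or.inr h)))
  · exact Or.inl h
  · exact Or.inr (Or.inl h)
  · exact Or.inr (Or.inr h)

/-- **The hypotheses of the concrete context.** -/
theorem exists_dat [Fintype K] [CharP K 2] (hy : Hyp K 2 D) (h : MinBad D K F) (he : SF D K F = ∅) :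
    ∃ (l : ℕ) (Mc : CoxeterMatrix (Fin l)) (k : ℕ), Dat D K F l Mc k := by
  obtain ⟨l, Mc, hp⟩ := H3.OT.exists_isType hy.inList
  obtain ⟨k, hk, hc⟩ := exists_two_pow hy.card
  have I := mkInp hy h hp
  have hC := H501.OT.le_GS I h he
  have lt2 : ∀ g ∈ F, (∀ t ∈ D.diagonalSubgroup K,
      g * t * g⁻¹ ∈ normalizer (D.diagonalSubgroup K : Set (GL D.Idx K))) →
      g ∈ normalizer (D.diagonalSubgroup K : Set (GL D.Idx K)) := fun g hg => I.lt2 g (h.le hg)
  have cent : ∀ x ∈ F, (∀ t ∈ D.diagonalSubgroup K, x * t = t * x) → x ∈ D.diagonalSubgroup K :=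
    fun x hx hc => I.cent x (h.le hx) fun t ht => (hc t ht).symm
  refine ⟨l, Mc, k, tyE_of_hyp hy, hp, hk, hc, I, h, he, ?_, ?_⟩
  · intro P₁ P₂ h1 h2 h12 ho
    exact H48.OT.psi_irr hy h he lt2 cent hC h1 h2 h12 ho
  · obtain ⟨a, ha⟩ := H501.OT.Psi_nonempty I h he
    by_contra hcon
    refine H194.OT.rank_one_false hy h he hC ha.1 (a := a) fun b hb => ?_
    by_contra h3
    exact hcon ⟨a, ha, b, hb, fun h4 => h3 (Or.inl h4), fun h4 => h3 (Or.inr h4)⟩

end Cfsg.Agent.H712.OT
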