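import Cfsg.Agent.H876.OT.Neg
import Cfsg.Agent.H501.OT.Conc
import Cfsg.Agent.H893.OT.KPrime
import Cfsg.Agent.H428.OT.LTC

/-!
# S2539, part 4 (q even): root layer of the concrete context (helper712)

`D ∈ {E6, E7, E8}`; sums of roots, characters.
-/

set_option autoImplicit false

namespace Cfsg.Agent.H712.OT

open Cfsg.Lie Cfsg.Agent.H412.OT
open Cfsg.Agent.ChevalleyStructure Cfsg.Agent.ChevalleyStructure.Elts Cfsg.Agent.ChevalleyStructure.RootCombGood
  Cfsg.Agent.ChevalleyStructure.RootWord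

universe u

variable {D : ChevalleyDatum}

/-- `D` is of type `E` -/
def TyE (D : ChevalleyDatum) : Prop := D = chevE6 ∨ D = chevE7 ∨ D = chevE8

theorem TyE.five (h : TyE D) : H876.OT.Five D := by
  rcases h with h | h | h
  · exact Or.inr (Or.inr (Or.inl h))
  · exact Or.inr (Or.inr (Or.inr (Or.inl h)))
  · exact Or.inr (Or.inr (Or.inr (Or.inr h)))

theorem TyE.mem_four (h : TyE D) : D ∈ [chevD4, chevE6, chevE7, chevE8] := by
  simp only [List.mem_cons, List.not_mem_nil, or_false]
  unfold TyE at h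
  tauto

theorem TyE.mem_hyp (h : TyE D) : D ∈ [chevG2, chevD4, chevF4, chevE6, chevE7, chevE8] := by
  simp only [List.mem_cons, List.not_mem_nil, or_false]
  unfold TyE at h
  tauto

theorem TyE.inList (h : TyE D) : InList D := inList_of_mem h.mem_hyp

theorem rank_E6 : chevE6.rank = 6 := by decide +kernel
theorem rank_E7 : chevE7.rank = 7 := by decide +kernel
theorem rank_E8 : chevE8.rank = 8 := by decide +kernel
theorem rank_D4 : chevD4.rank = 4 := by decide +kernel
theorem rank_F4 : chevF4.rank = 4 := by decide +kernel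

theorem cartan_E6_ne : chevE6 ≠ chevF4 := fun h => by
  have := congrArg ChevalleyDatum.rank h
  rw [rank_E6, rank_F4] at this
  omega

theorem TyE.ne (h : TyE D) : D ≠ chevF4 := by
  intro h4
  have e := congrArg ChevalleyDatum.rank h4
  rw [rank_F4] at e
  rcases h with rfl | rfl | rfl
  · rw [rank_E6] at e; omega
  · rw [rank_E7] at e; omega
  · rw [rank_E8] at e; omega

theorem TyE.rank_le (h : TyE D) : D.rank ≤ 8 := by
  rcases h with rfl | rfl | rfl
  · rw [rank_E6]; omega
  · rw [rank_E7]; omega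
  · rw [rank_E8]

theorem TyE.symm (h : TyE D) {a b : ℕ} (ha : a < D.nroots) (hb : b < D.nroots) : pr D a b = pr D b a :=
  h.five.symm h.ne ha hb

/-- sums of roots -/
theorem exists_sum (G : Good D) {b : ℕ} (hb : b < D.nroots) : ∀ a < D.nroots, pr D b a = -1 →
    ∃ c < D.nroots, ∀ j < D.rank, D.cartan j c = D.cartan j a + D.cartan j b := by
  refine root_induction G (P := fun b => ∀ a < D.nroots, pr D b a = -1 →
    ∃ c < D.nroots, ∀ j < D.rank, D.cartan j c = D.cartan j a + D.cartan j b) ?_ ?_ b hb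
  · intro i hi a ha h1
    have h2 : D.cartan i a = -1 := by rw [← car_simple G hi]; exact h1
    refine ⟨D.reflectRoot i a, G.reflect_lt hi ha, fun j hj => ?_⟩
    rw [G.cartan_reflect hi ha hj, h2]
    ring
  · intro i hi b hb ih a ha h1
    have h2 : pr D b (D.reflectRoot i a) = -1 := by
      have h3 := car_reflect G hi hb (G.reflect_lt hi ha)
      rw [G.reflect_reflect hi ha] at h3
      rw [← h1]
      exact h3.symm
    obtain ⟨c, hc, h4⟩ := ih _ (G.reflect_lt hi ha) h2
    refine ⟨D.reflectRoot i c, G.reflect_lt hi hc, fun j hj => ?_⟩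
    have e1 := h4 j hj
    have e2 := h4 i hi
    have e3 := G.cartan_reflect hi ha hj
    have e4 := G.cartan_reflect hi ha hi
    have e5 := G.cartan_simple hi
    rw [G.cartan_reflect hi hc hj, G.cartan_reflect hi hb hj, e1, e2, e3, e4, e5]
    ring

theorem pr_add {a b c : ℕ} (h : ∀ j < D.rank, D.cartan j c = D.cartan j a + D.cartan j b) (x : ℕ) :
    pr D x c = pr D x a + pr D x b := by
  show car D x c = car D x a + car D x b
  unfold car
  rw [← Finset.sum_add_distrib]
  refine Finset.sum_congr rfl fun k hk => ?_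
  rw [h k (Finset.mem_range.1 hk), mul_add]

section Chi

variable {K : Type u} [Field K]

theorem chi_add (hD : InList D) {t : GL D.Idx K} (ht : t ∈ D.diagonalSubgroup K) {a b c : ℕ} (ha : a < D.nroots)
    (hb : b < D.nroots) (hc : c < D.nroots)
    (h : ∀ j < D.rank, D.cartan j c = D.cartan j a + D.cartan j b) :
    chi D K t c = chi D K t a * chi D K t b := by
  obtain ⟨f, hf, e, -⟩ := tor_data hD ht
  have key : ∀ s < D.nroots, chi D K t s = ∏ i ∈ Finset.range D.rank, f i ^ D.cartan i s := by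
    intro s hs
    rw [chi, dif_pos hs, e, Matrix.diagonal_apply_eq, Sum.elim_inr]
  rw [key c hc, key a ha, key b hb, ← Finset.prod_mul_distrib]
  refine Finset.prod_congr rfl fun i hi => ?_
  rw [h i (Finset.mem_range.1 hi), zpow_add₀ (hf i (Finset.mem_range.1 hi))]

theorem chi_neg (hD : InList D) (G : Good D) {t : GL D.Idx K} (ht : t ∈ D.diagonalSubgroup K) {a : ℕ}
    (ha : a < D.nroots) : chi D K t (D.neg a) = (chi D K t a)⁻¹ := by
  obtain ⟨f, hf, e, -⟩ := tor_data hD ht
  have key : ∀ s < D.nroots, chi D K t s = ∏ i ∈ Finset.range D.rank, f i ^ D.cartan i s := by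
    intro s hs
    rw [chi, dif_pos hs, e, Matrix.diagonal_apply_eq, Sum.elim_inr]
  rw [key _ (RootWord.neg_lt G ha), key a ha, ← Finset.prod_inv_distrib]
  refine Finset.prod_congr rfl fun i hi => ?_
  rw [G.cartan_neg (Finset.mem_range.1 hi) ha, zpow_neg]

/-- `h_r` is multiplicative -/
theorem hG_mul (hD : InList D) {r : ℕ} (hr : r < D.nroots) {c d : K} (hc : c ≠ 0) (hd : d ≠ 0) :
    hG hD r (c * d) = hG hD r c * hG hD r d := by
  refine H893.OT.eq_of_chi hD (hG_mem hD hr (mul_ne_zero hc hd)) (mul_mem (hG_mem hD hr hc) (hG_mem hD hr hd)) ?_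
  intro s hs
  rw [chi_mul hD (hG_mem hD hr hc) (hG_mem hD hr hd), chi_hG hD hr hs hc, chi_hG hD hr hs hd,
    chi_hG hD hr hs (mul_ne_zero hc hd), mul_zpow]

theorem hG_one (hD : InList D) {r : ℕ} (hr : r < D.nroots) : hG hD r (1 : K) = 1 := by
  refine H893.OT.eq_of_chi hD (hG_mem hD hr one_ne_zero) (one_mem _) ?_
  intro s hs
  rw [chi_hG hD hr hs one_ne_zero, one_zpow, chi_one]

end Chi

end Cfsg.Agent.H712.OT
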