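import Mathlib

/-!
# S2539, part 4 (q even): the abstract context (helper712)

`Ctx K Y T M Φ Ψ P` : `Y = F/Z`, `T` (the image of) the split torus, `M = N_Y(T)`, `Φ` the roots of `G`, `Ψ` the roots
trivial on `Z`, `P a b = ⟨a, b^∨⟩` (simply laced), the action of `M` on the roots, coroots, root characters, and the facts
2.1, 2.2, 2.5 of the plan.
-/

set_option autoImplicit false

namespace Cfsg.Agent.H712.OT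

universe u v w

/-- Context of part 4 of the plan of S2539 (simply laced). -/
structure Ctx (K : Type u) [Field K] [Fintype K] (Y : Type v) [Group Y] (T M : Subgroup Y)
    (Φ : Type w) (Ψ : Set Φ) (P : Φ → Φ → ℤ) where
  /-- the torus is in `M` -/
  TM : T ≤ M
  comm : ∀ s ∈ T, ∀ t ∈ T, s * t = t * s
  symm : ∀ a b, P a b = P b a
  self : ∀ a, P a a = 2
  P_abs : ∀ a b, |P a b| ≤ 2
  two : ∀ a b, P a b = 2 → a = b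
  /-- negative root -/
  neg : Φ → Φ
  P_neg : ∀ a b, P (neg a) b = - P a b
  neg_mem : ∀ a ∈ Ψ, neg a ∈ Ψ
  /-- the action on the roots -/
  act : M →* Equiv.Perm Φ
  act_P : ∀ m x y, P (act m x) (act m y) = P x y
  act_mem : ∀ m x, x ∈ Ψ → act m x ∈ Ψ
  /-- the torus acts trivially, the action of `M/T` on `Ψ` is faithful -/
  act_T : ∀ m : M, (m : Y) ∈ T ↔ ∀ x ∈ Ψ, act m x = x
  /-- coroots -/
  h : Φ → Kˣ →* Y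
  h_mem : ∀ a c, h a c ∈ T
  /-- root characters -/
  χ : Φ → Y → Kˣ
  χ_mul : ∀ a ∈ Ψ, ∀ s ∈ T, ∀ t ∈ T, χ a (s * t) = χ a s * χ a t
  χ_h : ∀ a ∈ Ψ, ∀ b ∈ Ψ, ∀ c, χ b (h a c) = c ^ P b a
  χ_inj : ∀ t ∈ T, (∀ b ∈ Ψ, χ b t = 1) → t = 1
  χ_act : ∀ m : M, ∀ b ∈ Ψ, ∀ t ∈ T, χ (act m b) ((m : Y) * t * (m : Y)⁻¹) = χ b t
  conj_mem : ∀ m ∈ M, ∀ t ∈ T, m * t * m⁻¹ ∈ T
  χ_neg : ∀ a ∈ Ψ, ∀ t ∈ T, χ (neg a) t = (χ a t)⁻¹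
  add : ∀ a ∈ Ψ, ∀ b ∈ Ψ, P a b = -1 → ∃ c ∈ Ψ, (∀ x, P c x = P a x + P b x) ∧ ∀ t ∈ T, χ c t = χ a t * χ b t
  /-- 2.1 -/
  ti : ∀ f, f ∉ M → ∀ t ∈ T, f * t * f⁻¹ ∈ T → t = 1
  cent : ∀ t ∈ T, t ≠ 1 → ∀ g, g * t = t * g → g ∈ M
  /-- 2.3 -/
  irred : ∀ S : Set Φ, S ⊆ Ψ → S.Nonempty → S ≠ Ψ → ∃ a ∈ S, ∃ b ∈ Ψ, b ∉ S ∧ P a b ≠ 0
  /-- 2.4 -/
  rank : ∃ a ∈ Ψ, ∃ b ∈ Ψ, P a b = -1
  /-- 2.5 -/
  KK : ∀ f, f ∉ M → ∀ m : M, m ≠ 1 → f * (m : Y) * f⁻¹ ∈ T → ∀ l : List Φ,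
    (∀ x, (l.map fun a => P x (act m a)).sum = (l.map fun a => P x a).sum) →
    (∀ x, |(l.map fun a => P x a).sum| ≤ 4) → ∀ a ∈ Ψ, ((Fintype.card K - 1 : ℕ) : ℤ) ∣ (l.map fun b => P a b).sum
  /-- the rank of the root system is at most 8 -/
  basis : ∃ s : Fin 8 → Φ, ∀ a, ∃ c : Fin 8 → ℤ, ∀ x, P a x = ∑ i, c i * P (s i) x

end Cfsg.Agent.H712.OT
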