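import Cfsg.Agent.H712.OT.EvenDefs

/-!
# S2539, part 4 (q even), `ℓ = 3` (helper712)

`Ctx.three` : if `Ψ` contains an `A₃` and `3 ∣ q - 1`, then `T ∩ M^f` has no element of order 3 for `f ∉ M`.
-/

set_option autoImplicit false

namespace Cfsg.Agent.H712.OT

universe u v w

namespace Ctx

variable {K : Type u} [Field K] [Fintype K] {Y : Type v} [Group Y] {T M : Subgroup Y}
  {Φ : Type w} {Ψ : Set Φ} {P : Φ → Φ → ℤ}

section basic

theorem eq_neg (X : Ctx K Y T M Φ Ψ P) {a b : Φ} (h : P a b = -2) : a = X.neg b := by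
  refine (X.two _ _ ?_)
  rw [X.symm, X.P_neg, X.symm b a, h]
  norm_num

theorem trich (X : Ctx K Y T M Φ Ψ P) (x y : Φ) :
    |P x y| ≤ 1 ∨ (∀ z, P x z = P y z) ∨ (∀ z, P x z = - P y z) := by
  have h1 := abs_le.1 (X.P_abs x y)
  rcases lt_trichotomy (P x y) (-1) with h | h | h
  · right; right
    have h2 : P x y = -2 := by omega
    have h3 := X.eq_neg h2
    intro z
    rw [h3, X.P_neg]
  · left
    rw [h]
    norm_num
  · by_cases h2 : P x y = 2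
    · right; left
      intro z
      rw [X.two _ _ h2]
    · left
      rw [abs_le]
      omega

/-- an element of `M` which is conjugate to an element of `T` outside fixes no root of `Ψ` -/
theorem fix_free (X : Ctx K Y T M Φ Ψ P) (hq : 13 ≤ Fintype.card K) {f : Y} (hf : f ∉ M) {m : M} (hm1 : m ≠ 1)
    (hm : f * (m : Y) * f⁻¹ ∈ T) {g : Φ} (hg : g ∈ Ψ) : X.act m g ≠ g := by
  intro h
  have h1 := X.KK f hf m hm1 hm [g] (fun x => by simp [h]) (fun x => by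
    have := X.P_abs x g
    simp only [List.map_cons, List.map_nil, List.sum_cons, List.sum_nil, add_zero]
    exact this.trans (by norm_num)) g hg
  simp only [List.map_cons, List.map_nil, List.sum_cons, List.sum_nil, add_zero, X.self] at h1
  have h2 := Int.le_of_dvd (by norm_num) h1
  omega

theorem act_three (X : Ctx K Y T M Φ Ψ P) {m : M} (h3 : m ^ 3 = 1) (g : Φ) :
    X.act m (X.act m (X.act m g)) = g := by
  have h4 : X.act (m * m * m) g = g := by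
    have : m * m * m = 1 := by rw [← h3]; simp [pow_succ]
    rw [this]
    simp
  simpa only [map_mul, Equiv.Perm.mul_apply] using h4

/-- norm zero -/
theorem norm_three (X : Ctx K Y T M Φ Ψ P) (hq : 13 ≤ Fintype.card K) {f : Y} (hf : f ∉ M) {m : M} (hm1 : m ≠ 1)
    (hm : f * (m : Y) * f⁻¹ ∈ T) (h3 : m ^ 3 = 1) {g x : Φ} (hg : g ∈ Ψ) (hx : x ∈ Ψ) :
    P x g + P x (X.act m g) + P x (X.act m (X.act m g)) = 0 := by
  set g1 := X.act m g with hg1
  set g2 := X.act m g1 with hg2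
  have h30 : X.act m g2 = g := X.act_three h3 g
  have hne : g1 ≠ g := X.fix_free hq hf hm1 hm hg
  have hc1 : P g1 g2 = P g g1 := by
    rw [hg2]
    exact X.act_P m g g1
  have hc2 : P g2 g = P g g1 := by
    rw [← hc1]
    conv_lhs => rw [← h30]
    exact X.act_P m g1 g2
  have hcn2 : P g g1 ≠ 2 := fun h => hne (X.two _ _ h).symm
  have hcm2 : P g g1 ≠ -2 := by
    intro h
    have h5 := X.eq_neg h
    have h6 : P g g2 = - P g1 g2 := by
      conv_lhs => rw [h5]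
      rw [X.P_neg]
    rw [X.symm g g2, hc2, hc1] at h6
    omega
  have hcb := abs_le.1 (X.P_abs g g1)
  have hc : |P g g1| ≤ 1 := by
    rw [abs_le]
    omega
  have hwin : ∀ y, |P y g + P y g1 + P y g2| ≤ 4 := by
    intro y
    have hb0 := abs_le.1 (X.P_abs y g)
    have hb1 := abs_le.1 (X.P_abs y g1)
    have hb2 := abs_le.1 (X.P_abs y g2)
    have hc' := abs_le.1 hc
    have e0 : P g g2 = P g g1 := by rw [X.symm, hc2]
    have e1 : P g1 g = P g g1 := X.symm _ _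
    have e2 : P g2 g1 = P g g1 := by rw [X.symm, hc1]
    rw [abs_le]
    rcases X.trich y g with h | h | h
    · rcases X.trich y g1 with h' | h' | h'
      · rcases X.trich y g2 with h'' | h'' | h''
        · have := abs_le.1 h
          have := abs_le.1 h'
          have := abs_le.1 h''
          omega
        · have a1 := h'' g; have a2 := h'' g1; have a3 := h'' g2
          omega
        · have a1 := h'' g; have a2 := h'' g1; have a3 := h'' g2
          omega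
      · have a1 := h' g; have a2 := h' g1; have a3 := h' g2
        omega
      · have a1 := h' g; have a2 := h' g1; have a3 := h' g2
        omega
    · have a1 := h g; have a2 := h g1; have a3 := h g2
      omega
    · have a1 := h g; have a2 := h g1; have a3 := h g2
      omega
  have h7 := X.KK f hf m hm1 hm [g, g1, g2] (fun y => by
    simp only [List.map_cons, List.map_nil, List.sum_cons, List.sum_nil, add_zero]
    rw [← hg1, ← hg2, h30]
    ring) (fun y => by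
      simp only [List.map_cons, List.map_nil, List.sum_cons, List.sum_nil, add_zero]
      rw [← add_assoc]
      exact hwin y) x hx
  simp only [List.map_cons, List.map_nil, List.sum_cons, List.sum_nil, add_zero] at h7
  rw [← add_assoc] at h7
  refine Int.eq_zero_of_abs_lt_dvd h7 ?_
  have := hwin x
  omega

theorem P_act_three (X : Ctx K Y T M Φ Ψ P) (hq : 13 ≤ Fintype.card K) {f : Y} (hf : f ∉ M) {m : M} (hm1 : m ≠ 1)
    (hm : f * (m : Y) * f⁻¹ ∈ T) (h3 : m ^ 3 = 1) {g : Φ} (hg : g ∈ Ψ) :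
    P g (X.act m g) = -1 := by
  have h1 := X.norm_three hq hf hm1 hm h3 hg hg
  have h2 : P g (X.act m (X.act m g)) = P g (X.act m g) := by
    rw [X.symm, ← X.act_P m]
    rw [X.act_three h3]
  rw [h2, X.self] at h1
  omega

theorem χ_three (X : Ctx K Y T M Φ Ψ P) (hq : 13 ≤ Fintype.card K) {f : Y} (hf : f ∉ M) {m : M} (hm1 : m ≠ 1)
    (hm : f * (m : Y) * f⁻¹ ∈ T) (h3 : m ^ 3 = 1) {g : Φ} (hg : g ∈ Ψ) {t : Y} (ht : t ∈ T) :
    X.χ g t * X.χ (X.act m g) t * X.χ (X.act m (X.act m g)) t = 1 := by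
  have hg1 := X.act_mem m g hg
  have hg2 := X.act_mem m _ hg1
  have h1 := X.P_act_three hq hf hm1 hm h3 hg
  obtain ⟨c, hc, hcP, hcχ⟩ := X.add g hg _ hg1 h1
  have h2 : P c (X.act m (X.act m g)) = -2 := by
    rw [hcP, X.act_P, h1]
    have : P g (X.act m (X.act m g)) = P g (X.act m g) := by
      rw [X.symm, ← X.act_P m]
      rw [X.act_three h3]
    rw [this, h1]
    norm_num
  have h4 := X.eq_neg h2
  have h5 := hcχ t ht
  rw [h4, X.χ_neg _ hg2 t ht] at h5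
  rw [← h5]
  simp

theorem T_three (X : Ctx K Y T M Φ Ψ P) (hq : 13 ≤ Fintype.card K) {f : Y} (hf : f ∉ M) {m : M} (hm1 : m ≠ 1)
    (hm : f * (m : Y) * f⁻¹ ∈ T) (h3 : m ^ 3 = 1) {t : Y} (ht : t ∈ T) :
    t * ((m : Y) * t * (m : Y)⁻¹) * ((m : Y) * ((m : Y) * t * (m : Y)⁻¹) * (m : Y)⁻¹) = 1 := by
  have ht1 := X.conj_mem m m.2 t ht
  have ht2 := X.conj_mem m m.2 _ ht1
  refine X.χ_inj _ (T.mul_mem (T.mul_mem ht ht1) ht2) fun b hb => ?_
  rw [X.χ_mul b hb _ (T.mul_mem ht ht1) _ ht2, X.χ_mul b hb _ ht _ ht1]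
  have hb1 := X.act_mem m b hb
  have hb2 := X.act_mem m _ hb1
  have e1 : X.χ b ((m : Y) * t * (m : Y)⁻¹) = X.χ (X.act m (X.act m b)) t := by
    rw [← X.χ_act m _ hb2 t ht, X.act_three h3]
  have e2 : X.χ b ((m : Y) * ((m : Y) * t * (m : Y)⁻¹) * (m : Y)⁻¹) = X.χ (X.act m b) t := by
    have h4 := X.χ_act m _ hb2 _ ht1
    rw [X.act_three h3] at h4
    rw [h4]
    exact X.χ_act m _ hb1 t ht
  rw [e1, e2, mul_assoc, mul_comm (X.χ (X.act m (X.act m b)) t), ← mul_assoc]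
  exact X.χ_three hq hf hm1 hm h3 hb ht

end basic

/-- the subgroup `{t ∈ T : t^3 = 1}` -/
def V (X : Ctx K Y T M Φ Ψ P) : Subgroup Y where
  carrier := {t | t ∈ T ∧ t ^ 3 = 1}
  one_mem' := ⟨T.one_mem, one_pow 3⟩
  mul_mem' := fun {a b} ha hb => ⟨T.mul_mem ha.1 hb.1, by
    have hc : Commute a b := X.comm a ha.1 b hb.1
    rw [hc.mul_pow, ha.2, hb.2, one_mul]⟩
  inv_mem' := fun {a} ha => ⟨T.inv_mem ha.1, by rw [inv_pow, ha.2, inv_one]⟩

theorem mem_V (X : Ctx K Y T M Φ Ψ P) {t : Y} : t ∈ X.V ↔ t ∈ T ∧ t ^ 3 = 1 := Iff.rfl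

theorem conj_V (X : Ctx K Y T M Φ Ψ P) (m : M) {t : Y} (ht : t ∈ X.V) : (m : Y) * t * (m : Y)⁻¹ ∈ X.V :=
  ⟨X.conj_mem m m.2 t ht.1, by rw [conj_pow, ht.2]; simp⟩

/-- `v ↦ m v m⁻¹ v⁻¹` on `V` -/
def φ (X : Ctx K Y T M Φ Ψ P) (m : M) : X.V →* X.V where
  toFun v := ⟨(m : Y) * v * (m : Y)⁻¹ * (v : Y)⁻¹, X.V.mul_mem (X.conj_V m v.2) (X.V.inv_mem v.2)⟩
  map_one' := by
    ext
    simp
  map_mul' := fun a b => by
    ext
    simp only [Subgroup.coe_mul]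
    have h1 := X.comm _ (X.conj_V m b.2).1 _ a.2.1
    have h2 : ((a : Y) * b)⁻¹ = (a : Y)⁻¹ * (b : Y)⁻¹ := by
      rw [X.comm _ a.2.1 _ b.2.1, mul_inv_rev]
    rw [h2]
    have h3 : (m : Y) * ((a : Y) * b) * (m : Y)⁻¹ = ((m : Y) * a * (m : Y)⁻¹) * ((m : Y) * b * (m : Y)⁻¹) := by group
    rw [h3]
    have h4 := X.comm _ (X.conj_V m b.2).1 _ (T.inv_mem a.2.1)
    calc _ = ((m : Y) * a * (m : Y)⁻¹) * (((m : Y) * b * (m : Y)⁻¹) * (a : Y)⁻¹) * (b : Y)⁻¹ := by group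
      _ = _ := by rw [h4]; group

theorem φ_coe (X : Ctx K Y T M Φ Ψ P) (m : M) (v : X.V) :
    ((X.φ m v : X.V) : Y) = (m : Y) * v * (m : Y)⁻¹ * (v : Y)⁻¹ := rfl

theorem φ_φ (X : Ctx K Y T M Φ Ψ P) (hq : 13 ≤ Fintype.card K) {f : Y} (hf : f ∉ M) {m : M} (hm1 : m ≠ 1)
    (hm : f * (m : Y) * f⁻¹ ∈ T) (h3 : m ^ 3 = 1) (v : X.V) : X.φ m (X.φ m v) = 1 := by
  apply Subtype.ext
  have h0 := X.T_three hq hf hm1 hm h3 v.2.1
  set t : Y := (v : Y) with ht
  have c1 : (m : Y) * t * (m : Y)⁻¹ ∈ T := (X.conj_V m v.2).1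
  have c2 : (m : Y) * ((m : Y) * t * (m : Y)⁻¹) * (m : Y)⁻¹ ∈ T := X.conj_mem m m.2 _ c1
  have p1 : ((m : Y) * t * (m : Y)⁻¹) ^ 3 = 1 := (X.conj_V m v.2).2
  rw [φ_coe, φ_coe, ← ht]
  set a : Y := (m : Y) * t * (m : Y)⁻¹ with ha
  set b : Y := (m : Y) * a * (m : Y)⁻¹ with hb
  have e1 : (m : Y) * (a * t⁻¹) * (m : Y)⁻¹ = b * a⁻¹ := by rw [hb, ha]; group
  have e3 : (a * t⁻¹)⁻¹ = t * a⁻¹ := by group
  rw [e1, e3]
  have hta : Commute t a := X.comm _ v.2.1 _ c1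
  have htb : Commute t b := X.comm _ v.2.1 _ c2
  have hab : Commute a b := X.comm _ c1 _ c2
  have e2 : a⁻¹ * a⁻¹ = a := by
    have h5 : a * a * a = 1 := by
      rw [← p1]
      simp [pow_succ]
    calc a⁻¹ * a⁻¹ = a⁻¹ * a⁻¹ * (a * a * a) := by rw [h5, mul_one]
      _ = a := by group
  calc b * a⁻¹ * (t * a⁻¹) = b * (a⁻¹ * t) * a⁻¹ := by group
    _ = b * (t * a⁻¹) * a⁻¹ := by rw [(hta.inv_right).eq]
    _ = (b * t) * (a⁻¹ * a⁻¹) := by group
    _ = (t * b) * a := by rw [e2, htb.eq]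
    _ = t * (a * b) := by rw [hab.eq]; group
    _ = 1 := by rw [← mul_assoc]; exact h0

/-- an `A₃` gives `27 ≤ |V|` -/
theorem card_V [Finite Y] (X : Ctx K Y T M Φ Ψ P) (h3 : 3 ∣ Fintype.card K - 1)
    {a1 a2 a3 : Φ} (h1 : a1 ∈ Ψ) (h2 : a2 ∈ Ψ) (h3' : a3 ∈ Ψ) (h12 : P a1 a2 = -1) (h23 : P a2 a3 = -1)
    (h13 : P a1 a3 = 0) : 27 ≤ Nat.card X.V := by
  classical
  have hu : Fintype.card Kˣ = Fintype.card K - 1 := Fintype.card_units K
  obtain ⟨ζ, hζ⟩ : ∃ ζ : Kˣ, orderOf ζ = 3 := by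
    have : Fact (Nat.Prime 3) := ⟨Nat.prime_three⟩
    exact exists_prime_orderOf_dvd_card 3 (by rw [hu]; exact h3)
  have hζ3 : ζ ^ 3 = 1 := by rw [← hζ]; exact pow_orderOf_eq_one ζ
  have hmem : ∀ a, X.h a ζ ∈ X.V := fun a => ⟨X.h_mem a ζ, by rw [← map_pow, hζ3, map_one]⟩
  let F : Fin 3 × Fin 3 × Fin 3 → X.V := fun i =>
    ⟨X.h a1 (ζ ^ (i.1 : ℕ)) * X.h a2 (ζ ^ (i.2.1 : ℕ)) * X.h a3 (ζ ^ (i.2.2 : ℕ)), by
      simp only [map_pow]
      exact X.V.mul_mem (X.V.mul_mem (X.V.pow_mem (hmem _) _) (X.V.pow_mem (hmem _) _)) (X.V.pow_mem (hmem _) _)⟩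
  have hχ : ∀ b ∈ Ψ, ∀ i : Fin 3 × Fin 3 × Fin 3,
      X.χ b (F i : Y) = ζ ^ ((i.1 : ℤ) * P b a1 + (i.2.1 : ℤ) * P b a2 + (i.2.2 : ℤ) * P b a3) := by
    intro b hb i
    change X.χ b (X.h a1 (ζ ^ (i.1 : ℕ)) * X.h a2 (ζ ^ (i.2.1 : ℕ)) * X.h a3 (ζ ^ (i.2.2 : ℕ))) = _
    rw [X.χ_mul b hb _ (T.mul_mem (X.h_mem _ _) (X.h_mem _ _)) _ (X.h_mem _ _),
      X.χ_mul b hb _ (X.h_mem _ _) _ (X.h_mem _ _), X.χ_h a1 h1 b hb, X.χ_h a2 h2 b hb, X.χ_h a3 h3' b hb]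
    rw [zpow_add, zpow_add, ← zpow_natCast, ← zpow_natCast, ← zpow_natCast, ← zpow_mul, ← zpow_mul, ← zpow_mul]
  have hF : Function.Injective F := by
    intro i j hij
    have hz : ∀ n : ℤ, ζ ^ n = 1 → (3 : ℤ) ∣ n := by
      intro n hn
      have := orderOf_dvd_iff_zpow_eq_one.2 hn
      rwa [hζ] at this
    have key : ∀ b ∈ Ψ, (3 : ℤ) ∣ ((i.1 : ℤ) * P b a1 + (i.2.1 : ℤ) * P b a2 + (i.2.2 : ℤ) * P b a3) -
        ((j.1 : ℤ) * P b a1 + (j.2.1 : ℤ) * P b a2 + (j.2.2 : ℤ) * P b a3) := by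
      intro b hb
      apply hz
      rw [zpow_sub, ← hχ b hb i, ← hχ b hb j, hij, mul_inv_cancel]
    have k1 := key a1 h1
    have k2 := key a2 h2
    have k3 := key a3 h3'
    rw [X.self, h12, h13] at k1
    rw [X.symm a2 a1, h12, X.self, h23] at k2
    rw [X.symm a3 a1, h13, X.symm a3 a2, h23, X.self] at k3
    have b1 := i.1.2; have b2 := i.2.1.2; have b3 := i.2.2.2
    have c1 := j.1.2; have c2 := j.2.1.2; have c3 := j.2.2.2
    have r1 : (i.1 : ℕ) = j.1 := by omega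
    have r2 : (i.2.1 : ℕ) = j.2.1 := by omega
    have r3 : (i.2.2 : ℕ) = j.2.2 := by omega
    exact Prod.ext (Fin.ext r1) (Prod.ext (Fin.ext r2) (Fin.ext r3))
  have hc := Nat.card_le_card_of_injective F hF
  simpa using hc

/-- **`ℓ = 3`** -/
theorem three [Finite Y] (X : Ctx K Y T M Φ Ψ P) (hq : 13 ≤ Fintype.card K) (h3 : 3 ∣ Fintype.card K - 1)
    {a1 a2 a3 : Φ} (h1 : a1 ∈ Ψ) (h2 : a2 ∈ Ψ) (h3' : a3 ∈ Ψ) (h12 : P a1 a2 = -1) (h23 : P a2 a3 = -1)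
    (h13 : P a1 a3 = 0) {f : Y} (hf : f ∉ M) {t : Y} (ht : t ∈ T) (ho : orderOf t = 3)
    (hm : f⁻¹ * t * f ∈ M) : False := by
  classical
  have ht3 : t ^ 3 = 1 := by rw [← ho]; exact pow_orderOf_eq_one t
  have ht1 : t ≠ 1 := by
    rintro rfl
    rw [orderOf_one] at ho
    omega
  set m : M := ⟨f⁻¹ * t * f, hm⟩ with hmdef
  have hmT : f * (m : Y) * f⁻¹ = t := by
    rw [hmdef]
    group
  have hm3 : m ^ 3 = 1 := by
    apply Subtype.ext
    change (f⁻¹ * t * f) ^ 3 = 1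
    have := conj_pow (a := f⁻¹) (b := t) (i := 3)
    rw [inv_inv] at this
    rw [this, ht3]
    simp
  have hm1 : m ≠ 1 := by
    intro h
    apply ht1
    rw [← hmT, h]
    simp
  have hmT' : f * (m : Y) * f⁻¹ ∈ T := by rw [hmT]; exact ht
  -- the kernel
  have hle : (X.φ m).range ≤ (X.φ m).ker := by
    rintro _ ⟨v, rfl⟩
    exact X.φ_φ hq hf hm1 hmT' hm3 v
  have hcard := Subgroup.card_eq_card_quotient_mul_card_subgroup (X.φ m).ker
  have hq2 : Nat.card (X.V ⧸ (X.φ m).ker) = Nat.card (X.φ m).range :=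
    Nat.card_congr (QuotientGroup.quotientKerEquivRange (X.φ m)).toEquiv
  rw [hq2] at hcard
  have hle2 : Nat.card (X.φ m).range ≤ Nat.card (X.φ m).ker := Nat.card_le_card_of_injective
    (Subgroup.inclusion hle) (Subgroup.inclusion_injective hle)
  have h27 := X.card_V h3 h1 h2 h3' h12 h23 h13
  have h6 : 6 ≤ Nat.card (X.φ m).ker := by
    by_contra h
    have h7 : Nat.card (X.φ m).range * Nat.card (X.φ m).ker ≤ 5 * 5 := by
      have : Nat.card (X.φ m).ker ≤ 5 := by omega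
      exact Nat.mul_le_mul (hle2.trans this) this
    omega
  obtain ⟨v1, hv1⟩ : ∃ v1 : (X.φ m).ker, v1 ≠ 1 := by
    have : Nontrivial (X.φ m).ker := Finite.one_lt_card_iff_nontrivial.1 (by omega)
    exact exists_ne 1
  have hv3 : ∀ v : (X.φ m).ker, v ^ 3 = 1 := fun v => by
    apply Subtype.ext
    apply Subtype.ext
    exact v.1.2.2
  have hz : Nat.card (Subgroup.zpowers v1) ≤ 3 := by
    rw [Nat.card_zpowers]
    exact Nat.le_of_dvd (by norm_num) (orderOf_dvd_of_pow_eq_one (hv3 v1))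
  obtain ⟨v2, hv2⟩ : ∃ v2 : (X.φ m).ker, v2 ∉ Subgroup.zpowers v1 := by
    by_contra hcon
    push Not at hcon
    have : Subgroup.zpowers v1 = ⊤ := by
      rw [eq_top_iff]
      intro x _
      exact hcon x
    rw [this, Subgroup.card_top] at hz
    omega
  -- elements of the kernel commute with m
  have hcomm : ∀ v : (X.φ m).ker, (m : Y) * (v.1 : Y) = (v.1 : Y) * m := by
    intro v
    have h8 : X.φ m v.1 = 1 := v.2
    have h9 := congrArg (fun z : X.V => (z : Y)) h8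
    simp only [φ_coe, Subgroup.coe_one] at h9
    have h10 := mul_inv_eq_one.1 h9
    calc (m : Y) * (v.1 : Y) = (m : Y) * v.1 * (m : Y)⁻¹ * m := by group
      _ = _ := by rw [h10]
  have hMem : ∀ v : (X.φ m).ker, f * (v.1 : Y) * f⁻¹ ∈ M := by
    intro v
    refine X.cent t ht ht1 _ ?_
    rw [← hmT]
    calc f * (v.1 : Y) * f⁻¹ * (f * (m : Y) * f⁻¹) = f * ((v.1 : Y) * m) * f⁻¹ := by group
      _ = f * ((m : Y) * v.1) * f⁻¹ := by rw [hcomm]
      _ = _ := by group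
  -- the homomorphism
  let n : (X.φ m).ker →* M :=
    { toFun := fun v => ⟨f * (v.1 : Y) * f⁻¹, hMem v⟩
      map_one' := by
        apply Subtype.ext
        simp
      map_mul' := fun a b => by
        apply Subtype.ext
        simp }
  have hf' : f⁻¹ ∉ M := fun h => hf (by simpa using M.inv_mem h)
  have hn1 : ∀ v : (X.φ m).ker, v ≠ 1 → n v ≠ 1 := by
    intro v hv h
    apply hv
    apply Subtype.ext
    apply Subtype.ext
    have h11 : f * (v.1 : Y) * f⁻¹ = 1 := congrArg (fun z : M => (z : Y)) h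
    have : (v.1 : Y) = f⁻¹ * (f * (v.1 : Y) * f⁻¹) * f := by group
    rw [this, h11]
    simp
  have hnT : ∀ v : (X.φ m).ker, f⁻¹ * (n v : Y) * f⁻¹⁻¹ ∈ T := by
    intro v
    have : f⁻¹ * (n v : Y) * f⁻¹⁻¹ = (v.1 : Y) := by
      change f⁻¹ * (f * (v.1 : Y) * f⁻¹) * f⁻¹⁻¹ = _
      group
    rw [this]
    exact v.1.2.1
  have hn3 : ∀ v : (X.φ m).ker, n v ^ 3 = 1 := fun v => by rw [← map_pow, hv3, map_one]
  have norm : ∀ v : (X.φ m).ker, v ≠ 1 → ∀ g ∈ Ψ, ∀ x ∈ Ψ,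
      P x g + P x (X.act (n v) g) + P x (X.act (n v) (X.act (n v) g)) = 0 := fun v hv g hg x hx =>
    X.norm_three hq hf' (hn1 v hv) (hnT v) (hn3 v) hg hx
  have hv2' : v2 ≠ 1 := fun h => hv2 (by rw [h]; exact Subgroup.one_mem _)
  have hv12 : v1 * v2 ≠ 1 := fun h => hv2 (by
    have : v2 = v1⁻¹ := (eq_inv_of_mul_eq_one_right h)
    rw [this]
    exact Subgroup.inv_mem _ (Subgroup.mem_zpowers v1))
  have hv122 : v1 * (v2 * v2) ≠ 1 := fun h => hv2 (by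
    have h12' : v2 * v2 = v1⁻¹ := (eq_inv_of_mul_eq_one_right h)
    have h13' : v2 = (v2 * v2) * (v2 * v2) := by
      have h14 := hv3 v2
      have : v2 * v2 * (v2 * v2) = v2 ^ 3 * v2 := by simp [pow_succ, mul_assoc]
      rw [this, h14, one_mul]
    rw [h13', h12']
    exact Subgroup.mul_mem _ (Subgroup.inv_mem _ (Subgroup.mem_zpowers v1))
      (Subgroup.inv_mem _ (Subgroup.mem_zpowers v1)))
  -- the sum
  set w1 := X.act (n v1) with hw1
  set w2 := X.act (n v2) with hw2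
  have hcv : v1 * v2 = v2 * v1 := by
    apply Subtype.ext
    apply Subtype.ext
    exact X.comm _ v1.1.2.1 _ v2.1.2.1
  have hcw : ∀ y, w1 (w2 y) = w2 (w1 y) := by
    intro y
    have : X.act (n (v1 * v2)) y = X.act (n (v2 * v1)) y := by rw [hcv]
    simpa only [map_mul, Equiv.Perm.mul_apply] using this
  have hw13 : ∀ y, w1 (w1 (w1 y)) = y := fun y => X.act_three (hn3 v1) y
  have hw23 : ∀ y, w2 (w2 (w2 y)) = y := fun y => X.act_three (hn3 v2) y
  have m1 : ∀ y ∈ Ψ, w1 y ∈ Ψ := fun y hy => X.act_mem _ y hy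
  have m2 : ∀ y ∈ Ψ, w2 y ∈ Ψ := fun y hy => X.act_mem _ y hy
  set g := a1 with hg
  have R1 := norm v1 hv1 g h1 g h1
  have R2 := norm v2 hv2' g h1 g h1
  have R3 := norm _ hv12 g h1 g h1
  have R4 := norm _ hv122 g h1 g h1
  have Q1 := norm v1 hv1 (w2 g) (m2 _ h1) g h1
  have Q2 := norm v1 hv1 (w2 (w2 g)) (m2 _ (m2 _ h1)) g h1
  simp only [map_mul, Equiv.Perm.mul_apply, ← hw1, ← hw2] at R1 R2 R3 R4 Q1 Q2
  -- normal forms w1^i w2^j g
  have s1 : w1 (w2 (w1 (w2 g))) = w1 (w1 (w2 (w2 g))) := by rw [hcw (w2 g), hcw g]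
  have s2 : w1 (w2 (w2 (w1 (w2 (w2 g))))) = w1 (w1 (w2 g)) := by
    rw [← hcw, ← hcw, hw23]
  rw [s1] at R3
  rw [s2] at R4
  rw [X.self] at R1 R2 R3 R4
  omega

end Ctx

end Cfsg.Agent.H712.OT
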